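import Mathlib

set_option autoImplicit false

namespace Cfsg.Agent.Lib.Helper14

universe u

variable {G : Type u} [Group G]

/-- The elements normalizing `K` and `O` and acting trivially on `K` modulo `O`:
`e k e⁻¹ k⁻¹ ∈ O` for all `k ∈ K`. -/
def actTriv (K O : Subgroup G) : Subgroup G where
  carrier := {e | e ∈ Subgroup.normalizer (K : Set G) ∧ e ∈ Subgroup.normalizer (O : Set G) ∧
    ∀ k ∈ K, e * k * e⁻¹ * k⁻¹ ∈ O}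
  one_mem' := ⟨one_mem _, one_mem _, fun k _ => by simp⟩
  mul_mem' := by
    rintro a b ha hb
    refine ⟨mul_mem ha.1 hb.1, mul_mem ha.2.1 hb.2.1, fun k hk => ?_⟩
    have h2 : a * (b * k * b⁻¹ * k⁻¹) * a⁻¹ ∈ O :=
      (Subgroup.mem_normalizer_iff.mp ha.2.1 _).mp (hb.2.2 k hk)
    have e : a * b * k * (a * b)⁻¹ * k⁻¹ =
        (a * (b * k * b⁻¹ * k⁻¹) * a⁻¹) * (a * k * a⁻¹ * k⁻¹) := by group
    rw [e]; exact mul_mem h2 (ha.2.2 k hk)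
  inv_mem' := by
    rintro a ha
    refine ⟨inv_mem ha.1, inv_mem ha.2.1, fun k hk => ?_⟩
    have hk' : a⁻¹ * k * a⁻¹⁻¹ ∈ K := (Subgroup.mem_normalizer_iff.mp (inv_mem ha.1) k).mp hk
    have h2 := ha.2.2 _ hk'
    have e : a⁻¹ * k * a⁻¹⁻¹ * k⁻¹ =
        (a * (a⁻¹ * k * a⁻¹⁻¹) * a⁻¹ * (a⁻¹ * k * a⁻¹⁻¹)⁻¹)⁻¹ := by group
    rw [e]; exact inv_mem h2

theorem mem_actTriv {K O : Subgroup G} {e : G} :
    e ∈ actTriv K O ↔ e ∈ Subgroup.normalizer (K : Set G) ∧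
      e ∈ Subgroup.normalizer (O : Set G) ∧ ∀ k ∈ K, e * k * e⁻¹ * k⁻¹ ∈ O := Iff.rfl

/-- `actTriv K O` is normalized by the elements normalizing both `K` and `O`. -/
theorem conj_mem_actTriv {K O : Subgroup G} {e q : G} (he : e ∈ actTriv K O)
    (hqK : q ∈ Subgroup.normalizer (K : Set G)) (hqO : q ∈ Subgroup.normalizer (O : Set G)) :
    q * e * q⁻¹ ∈ actTriv K O := by
  refine ⟨mul_mem (mul_mem hqK he.1) (inv_mem hqK), mul_mem (mul_mem hqO he.2.1) (inv_mem hqO),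
    fun k hk => ?_⟩
  have hk' : q⁻¹ * k * q⁻¹⁻¹ ∈ K := (Subgroup.mem_normalizer_iff.mp (inv_mem hqK) k).mp hk
  have h2 := he.2.2 _ hk'
  have h3 : q * (e * (q⁻¹ * k * q⁻¹⁻¹) * e⁻¹ * (q⁻¹ * k * q⁻¹⁻¹)⁻¹) * q⁻¹ ∈ O :=
    (Subgroup.mem_normalizer_iff.mp hqO _).mp h2
  have e1 : q * e * q⁻¹ * k * (q * e * q⁻¹)⁻¹ * k⁻¹ =
      q * (e * (q⁻¹ * k * q⁻¹⁻¹) * e⁻¹ * (q⁻¹ * k * q⁻¹⁻¹)⁻¹) * q⁻¹ := by group
  rw [e1]; exact h3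

end Cfsg.Agent.Lib.Helper14
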