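import Mathlib

set_option autoImplicit false

namespace Cfsg.Agent.Lib.Helper14

universe u

variable {G : Type u} [Group G]

open scoped IsMulCommutative in
/-- A `1`-cocycle of a finite group with values in an abelian normal `p`-subgroup, trivial on a
Sylow `p`-subgroup, is a coboundary. -/
theorem cocycle_coboundary [Finite G] {p : ℕ} [Fact p.Prime] (A : Subgroup G) [A.Normal]
    [IsMulCommutative A] (hA : IsPGroup p A) (T : Sylow p G) (d : G → A)
    (hd : ∀ g h : G, d (g * h) = d g * MulAut.conjNormal g (d h))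
    (hT : ∀ t ∈ (T : Subgroup G), d t = 1) :
    ∃ w : A, ∀ g : G, d g = w * (MulAut.conjNormal g w)⁻¹ := by
  classical
  have hfin : Fintype (G ⧸ (T : Subgroup G)) := Fintype.ofFinite _
  let f : G ⧸ (T : Subgroup G) → A := Quotient.lift d (by
    intro a b hab
    have h : a⁻¹ * b ∈ (T : Subgroup G) := QuotientGroup.leftRel_apply.mp hab
    have hb : b = a * (a⁻¹ * b) := by group
    conv_rhs => rw [hb, hd, hT _ h, map_one, mul_one])
  have hf : ∀ a : G, f (a : G ⧸ (T : Subgroup G)) = d a := fun a => rfl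
  set z : A := ∏ q, f q with hz
  set k := Fintype.card (G ⧸ (T : Subgroup G)) with hk
  have hkey : ∀ g : G, d g ^ k = z * (MulAut.conjNormal g z)⁻¹ := by
    intro g
    have h1 : ∏ q, f (g • q) = z := Equiv.prod_comp (MulAction.toPerm g) f
    have h2 : ∀ q, f (g • q) = d g * MulAut.conjNormal g (f q) := by
      intro q
      induction q using QuotientGroup.induction_on with
      | H a =>
        rw [hf, ← hd]
        rfl
    simp_rw [h2] at h1
    rw [Finset.prod_mul_distrib, Finset.prod_const, Finset.card_univ, ← map_prod] at h1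
    rw [← hz] at h1
    rw [← hk] at h1
    rw [eq_mul_inv_iff_mul_eq]
    exact h1
  have hkp : ¬ p ∣ k := by
    have h1 : k = (T : Subgroup G).index := by
      rw [hk, Subgroup.index, Nat.card_eq_fintype_card]
    rw [h1]; exact T.not_dvd_index
  obtain ⟨a, ha⟩ := IsPGroup.iff_card.mp hA
  have hcop : Nat.Coprime k (p ^ a) :=
    Nat.Coprime.pow_right a ((Nat.Prime.coprime_iff_not_dvd (Fact.out : p.Prime)).mpr hkp).symm
  have hbez : (1 : ℤ) = (k : ℤ) * Int.gcdA k (p ^ a : ℕ) + ((p ^ a : ℕ) : ℤ) * Int.gcdB k (p ^ a : ℕ) := by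
    have := Int.gcd_eq_gcd_ab (k : ℤ) ((p ^ a : ℕ) : ℤ)
    rw [Int.gcd_natCast_natCast, hcop] at this
    exact_mod_cast this
  set x := Int.gcdA k (p ^ a : ℕ)
  set y := Int.gcdB k (p ^ a : ℕ)
  refine ⟨z ^ x, fun g => ?_⟩
  have hpa : d g ^ (p ^ a) = 1 := by rw [← ha]; exact pow_card_eq_one'
  have e2 : d g = (d g ^ k) ^ x * (d g ^ (p ^ a)) ^ y := by
    rw [← zpow_natCast (d g) k, ← zpow_natCast (d g) (p ^ a), ← zpow_mul, ← zpow_mul, ← zpow_add,
      ← hbez, zpow_one]
  rw [hpa, one_zpow, mul_one, hkey g, mul_zpow, inv_zpow] at e2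
  rw [map_zpow]
  exact e2

end Cfsg.Agent.Lib.Helper14
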