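import Mathlib
import Cfsg.Agent.Lib.Helper14.Sections
import Cfsg.Agent.Lib.Helper14.SylowRel
import Cfsg.Agent.Lib.Helper14.FamilyCtl
import Cfsg.Agent.Lib.Helper1.FrobPC

set_option autoImplicit false

/-!
Normal subgroups of index `p` from control of transfer in all sections.
-/

namespace Cfsg.Agent.Lib.Helper14

open Cfsg
open scoped commutatorElement

universe u

/-- A homomorphism with nontrivial `p`-group image gives a normal subgroup of index `p`. -/
theorem exists_normal_index_p_of_hom {X A : Type*} [Group X] [Finite X] [Group A] {p : ℕ}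
    [Fact p.Prime] (f : X →* A) (hf : IsPGroup p f.range) (t : X) (ht : f t ≠ 1) :
    ∃ N : Subgroup X, N.Normal ∧ N.index = p := by
  have hp : p.Prime := Fact.out
  have hfin : Finite f.range := Finite.of_surjective f.rangeRestrict f.rangeRestrict_surjective
  have hnt : Nontrivial f.range :=
    ⟨⟨f.rangeRestrict t, 1, fun h => ht (congrArg Subtype.val h)⟩⟩
  obtain ⟨k, hk⟩ := IsPGroup.iff_card.mp hf
  have hk0 : k ≠ 0 := by
    rintro rfl
    rw [pow_zero] at hk
    have := Finite.one_lt_card (α := f.range)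
    omega
  obtain ⟨k', rfl⟩ : ∃ k', k = k' + 1 := ⟨k - 1, by omega⟩
  obtain ⟨K, hK⟩ := Sylow.exists_subgroup_card_pow_prime (G := f.range) p (n := k')
    (by rw [hk]; exact pow_dvd_pow p (Nat.le_succ k'))
  have hidx : K.index = p := by
    have h1 := K.card_mul_index
    rw [hK, hk, pow_succ] at h1
    exact Nat.eq_of_mul_eq_mul_left (pow_pos hp.pos k') h1
  have hKn : K.Normal := by
    apply Subgroup.normal_of_index_eq_minFac_card
    rw [hidx, hk, hp.pow_minFac (Nat.succ_ne_zero k')]
  refine ⟨K.comap f.rangeRestrict, inferInstance, ?_⟩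
  rw [Subgroup.index_comap_of_surjective K f.rangeRestrict_surjective]
  exact hidx

/-- A `p`-element outside the commutator subgroup gives a normal subgroup of index `p`. -/
theorem exists_normal_index_p_of_not_mem_commutator {X : Type*} [Group X] [Finite X] {p : ℕ}
    [Fact p.Prime] (t : X) (j : ℕ) (htj : t ^ (p ^ j) = 1) (ht : t ∉ commutator X) :
    ∃ N : Subgroup X, N.Normal ∧ N.index = p := by
  have hp : p.Prime := Fact.out
  have hcpos : Nat.card (Abelianization X) ≠ 0 := Nat.card_pos.ne'
  obtain ⟨a, m, hm, hc⟩ := Nat.exists_eq_pow_mul_and_not_dvd hcpos p hp.ne_one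
  let f : X →* Abelianization X := (powMonoidHom m).comp Abelianization.of
  have hfx : ∀ x : X, f x = (Abelianization.of x) ^ m := fun x => rfl
  have hrange : IsPGroup p f.range := by
    rintro ⟨_, x, rfl⟩
    refine ⟨a, Subtype.ext ?_⟩
    show (f x) ^ (p ^ a) = 1
    rw [hfx, ← pow_mul, mul_comm, ← hc]
    exact pow_card_eq_one'
  have ht1 : Abelianization.of t ≠ 1 := by
    intro h
    apply ht
    rw [← Abelianization.ker_of]
    exact MonoidHom.mem_ker.mpr h
  have hft : f t ≠ 1 := by
    rw [hfx]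
    intro h
    have h2 : (Abelianization.of t) ^ (p ^ j) = 1 := by rw [← map_pow, htj, map_one]
    have h3 := pow_gcd_eq_one.mpr ⟨h, h2⟩
    have hcop : Nat.gcd m (p ^ j) = 1 :=
      Nat.Coprime.pow_right j ((Nat.Prime.coprime_iff_not_dvd hp).mpr hm).symm
    rw [hcop, pow_one] at h3
    exact ht1 h3
  exact exists_normal_index_p_of_hom f hrange t hft

theorem exists_normal_index_p_of_ctl {p : ℕ} [Fact p.Prime]
    {W : ∀ (Q : Type u) [Group Q], Subgroup Q} (hW : IsCharPFunctor.{u} p W)
    (𝒮 : ∀ (X : Type u) [Group X], Prop)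
    (hsub : ∀ (X : Type u) [Group X], 𝒮 X → ∀ Y : Subgroup X, 𝒮 ↥Y)
    (hquot : ∀ (X : Type u) [Group X], 𝒮 X → ∀ (M : Subgroup X) [M.Normal], 𝒮 (X ⧸ M))
    (hctl : ∀ (X : Type u) [Group X] [Finite X], 𝒮 X →
      ControlsTransferIn p (inducedFunctor (G := X) W) ⊤) :
    ∀ (n : ℕ) (X : Type u) [Group X] [Finite X], 𝒮 X → Nat.card X ≤ n →
      ∀ T : Subgroup X, IsPGroup p T → ¬ p ∣ T.index → T ≠ ⊥ →
      (∀ g ∈ Subgroup.normalizer (T : Set X), (orderOf g).Coprime p →
        g ∈ Subgroup.centralizer (T : Set X)) →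
      ∃ N : Subgroup X, N.Normal ∧ N.index = p := by
  have hp : p.Prime := Fact.out
  intro n
  induction n using Nat.strong_induction_on with
  | _ n ih =>
    intro X _ _ hX hcard T₀ hT₀p hT₀idx hT₀ne hT₀N
    obtain ⟨T, -, hTp, hTidx, heq⟩ := hctl X hX
    rw [Subgroup.relIndex_top_right] at hTidx
    -- conjugacy of T₀ and T
    obtain ⟨k, hk⟩ : ∃ k : X, T = T₀.map (MulAut.conj k).toMonoidHom := by
      obtain ⟨k, hk⟩ := MulAction.exists_smul_eq X (hT₀p.toSylow hT₀idx) (hTp.toSylow hTidx)
      refine ⟨k, ?_⟩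
      have h1 : ((hTp.toSylow hTidx : Sylow p X) : Subgroup X) = T := rfl
      rw [← h1, ← hk]
      rfl
    have hTne : T ≠ ⊥ := hk ▸ map_conj_ne_bot hT₀ne k
    have hTN : ∀ g ∈ Subgroup.normalizer (T : Set X), (orderOf g).Coprime p →
        g ∈ Subgroup.centralizer (T : Set X) := by
      intro g hg hcop
      rw [hk] at hg ⊢
      rw [mem_normalizer_map_conj_iff] at hg
      rw [mem_centralizer_map_conj_iff]
      apply hT₀N _ hg
      have : orderOf (k⁻¹ * g * k) = orderOf g := by
        have h1 : k⁻¹ * g * k = (MulAut.conj k⁻¹) g := by simp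
        rw [h1, MulEquiv.orderOf_eq]
      rw [this]; exact hcop
    obtain ⟨WT, hWTdef⟩ : ∃ WT : Subgroup X, WT = inducedFunctor W T := ⟨_, rfl⟩
    rw [← hWTdef, top_inf_eq] at heq
    have hWle : WT ≤ T := hWTdef ▸ inducedFunctor_le T
    have hWne : WT ≠ ⊥ := hWTdef ▸ inducedFunctor_ne_bot hW T hTp hTne
    have hTN₁ : T ≤ Subgroup.normalizer (WT : Set X) := by
      intro t ht
      apply mem_normalizer_of_map_conj_eq
      rw [hWTdef, ← inducedFunctor_map_conj hW t T hTp,
        map_conj_eq_self_of_mem_normalizer (Subgroup.le_normalizer ht)]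
    by_cases hN₁ : Subgroup.normalizer (WT : Set X) = ⊤
    · have hWn : WT.Normal := Subgroup.normalizer_eq_top_iff.mp hN₁
      by_cases hWT : WT = T
      · -- T is normal
        have hTn : T.Normal := hWT ▸ hWn
        have hF : Cfsg.Agent.Lib.Helper1.FrobCond p X := by
          intro Q hQ g _ hcop
          have hQT : Q ≤ T := by
            have h1 : IsPGroup p ↥(Q ⊔ T) := hQ.to_sup_of_normal_right hTp
            have h2 := eq_of_le_of_relIndex (A := T) (B := Q ⊔ T) (N := ⊤) le_sup_right le_top h1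
              (by rw [Subgroup.relIndex_top_right]; exact hTidx)
            rw [h2]; exact le_sup_left
          have hgT : g ∈ Subgroup.normalizer (T : Set X) := by
            rw [Subgroup.normalizer_eq_top]; trivial
          exact Subgroup.centralizer_le hQT (hTN g hgT hcop)
        have hcompl := Cfsg.Agent.Lib.Helper1.frobCond_isComplement' hF (hTp.toSylow hTidx)
        have hOn : (Cfsg.pResidual p X).Normal := Cfsg.Agent.Lib.Helper1.pResidual_normal p
        have hquotp : IsPGroup p (X ⧸ Cfsg.pResidual p X) :=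
          Cfsg.Agent.Lib.Helper1.isPGroup_quotient_pResidual p
        obtain ⟨t, htT, ht1⟩ : ∃ t ∈ T, t ≠ 1 := by
          by_contra hcon
          push Not at hcon
          exact hTne (eq_bot_iff.mpr (fun x hx => Subgroup.mem_bot.mpr (hcon x hx)))
        have htO : t ∉ Cfsg.pResidual p X := by
          intro h
          have hdisj := hcompl.disjoint
          have h1 : t ∈ Cfsg.pResidual p X ⊓ ((hTp.toSylow hTidx : Sylow p X) : Subgroup X) :=
            Subgroup.mem_inf.mpr ⟨h, htT⟩
          rw [disjoint_iff.mp hdisj, Subgroup.mem_bot] at h1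
          exact ht1 h1
        refine exists_normal_index_p_of_hom (QuotientGroup.mk' (Cfsg.pResidual p X))
          (hquotp.to_subgroup _) t ?_
        intro h
        exact htO ((QuotientGroup.eq_one_iff t).mp h)
      · -- pass to the quotient by WT
        obtain ⟨π, hπdef⟩ : ∃ π : X →* X ⧸ WT, π = QuotientGroup.mk' WT := ⟨_, rfl⟩
        have hπs : Function.Surjective π := hπdef ▸ QuotientGroup.mk'_surjective WT
        have hkerπ : π.ker = WT := by rw [hπdef]; exact QuotientGroup.ker_mk' WT
        have hcardlt : Nat.card (X ⧸ WT) < n := by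
          have h1 := Subgroup.card_eq_card_quotient_mul_card_subgroup WT
          have h2 : 1 < Nat.card WT := by
            have hnt : Nontrivial ↥WT := (Subgroup.nontrivial_iff_ne_bot WT).mpr hWne
            exact Finite.one_lt_card
          have h3 : 0 < Nat.card (X ⧸ WT) := Nat.card_pos
          nlinarith
        have hTbar_idx : ¬ p ∣ (T.map π).index := fun h =>
          hTidx (h.trans (Subgroup.index_map_dvd T hπs))
        have hTbar_ne : T.map π ≠ ⊥ := by
          intro h
          apply hWT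
          apply le_antisymm hWle
          intro t ht
          have h1 : π t ∈ T.map π := Subgroup.mem_map_of_mem π ht
          rw [h, Subgroup.mem_bot] at h1
          rw [← hkerπ]; exact MonoidHom.mem_ker.mpr h1
        have hcomap : (T.map π).comap π = T := by
          rw [Subgroup.comap_map_eq, hkerπ, sup_eq_left.mpr hWle]
        have hTbarN : ∀ g ∈ Subgroup.normalizer ((T.map π : Subgroup (X ⧸ WT)) : Set (X ⧸ WT)),
            (orderOf g).Coprime p →
            g ∈ Subgroup.centralizer ((T.map π : Subgroup (X ⧸ WT)) : Set (X ⧸ WT)) := by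
          intro g hg hcop
          obtain ⟨y, rfl⟩ := hπs g
          have hyN : y ∈ Subgroup.normalizer (T : Set X) := by
            have h1 : y ∈ (Subgroup.normalizer ((T.map π : Subgroup (X ⧸ WT)) :
                Set (X ⧸ WT))).comap π := hg
            rw [Subgroup.comap_normalizer_eq_of_surjective _ hπs, hcomap] at h1
            exact h1
          have ho : orderOf y ≠ 0 := (orderOf_pos y).ne'
          obtain ⟨e, m, hm, hom⟩ := Nat.exists_eq_pow_mul_and_not_dvd ho p hp.ne_one
          have hcop' : (p ^ e).Coprime (orderOf (π y)) := Nat.Coprime.pow_left e hcop.symm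
          obtain ⟨j, hj⟩ := exists_pow_eq_self_of_coprime hcop'
          have hy₀N : (y ^ (p ^ e)) ^ j ∈ Subgroup.normalizer (T : Set X) :=
            Subgroup.pow_mem _ (Subgroup.pow_mem _ hyN _) _
          have hy₀ord : (orderOf ((y ^ (p ^ e)) ^ j)).Coprime p := by
            have h1 : ((y ^ (p ^ e)) ^ j) ^ m = 1 := by
              have h0 : p ^ e * (j * m) = orderOf y * j := by rw [hom]; ring
              rw [← pow_mul, ← pow_mul, h0, pow_mul, pow_orderOf_eq_one, one_pow]
            have h2 : orderOf ((y ^ (p ^ e)) ^ j) ∣ m := orderOf_dvd_of_pow_eq_one h1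
            exact Nat.Coprime.coprime_dvd_left h2
              ((Nat.Prime.coprime_iff_not_dvd hp).mpr hm).symm
          have hcent := hTN _ hy₀N hy₀ord
          have hπy₀ : π ((y ^ (p ^ e)) ^ j) = π y := by
            rw [map_pow, map_pow]; exact hj
          rw [← hπy₀, Subgroup.mem_centralizer_iff]
          rintro _ ⟨t, ht, rfl⟩
          have h1 := (Subgroup.mem_centralizer_iff.mp hcent) t ht
          rw [← map_mul, ← map_mul, h1]
        obtain ⟨Nb, hNbn, hNbidx⟩ := ih (Nat.card (X ⧸ WT)) hcardlt (X ⧸ WT) (hquot X hX WT)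
          le_rfl (T.map π) (hTp.map π) hTbar_idx hTbar_ne hTbarN
        refine ⟨Nb.comap π, inferInstance, ?_⟩
        rw [Subgroup.index_comap_of_surjective Nb hπs]
        exact hNbidx
    · -- the normalizer of WT is proper
      obtain ⟨N₁, hN₁def⟩ : ∃ N₁ : Subgroup X, N₁ = Subgroup.normalizer (WT : Set X) := ⟨_, rfl⟩
      rw [← hN₁def] at hN₁ heq hTN₁
      have hcardlt : Nat.card ↥N₁ < n := by
        have h1 : Nat.card ↥N₁ ≤ Nat.card X := Subgroup.card_le_card_group N₁
        rcases h1.lt_or_eq with h | h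
        · exact lt_of_lt_of_le h hcard
        · exact absurd (Subgroup.eq_top_of_card_eq N₁ h) hN₁
      have hTYp : IsPGroup p ↥(T.subgroupOf N₁) := hTp.comap_subtype
      have hTYidx : ¬ p ∣ (T.subgroupOf N₁).index := fun h =>
        hTidx (h.trans (Subgroup.relIndex_dvd_index_of_le hTN₁))
      have hTYmap : (T.subgroupOf N₁).map N₁.subtype = T := Subgroup.map_subgroupOf_eq_of_le hTN₁
      have hTYne : T.subgroupOf N₁ ≠ ⊥ := by
        intro h
        apply hTne
        rw [← hTYmap, h, Subgroup.map_bot]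
      have hTYN : ∀ g ∈ Subgroup.normalizer ((T.subgroupOf N₁ : Subgroup ↥N₁) : Set ↥N₁),
          (orderOf g).Coprime p →
          g ∈ Subgroup.centralizer ((T.subgroupOf N₁ : Subgroup ↥N₁) : Set ↥N₁) := by
        intro g hg hcop
        have h1 : (g : X) ∈ Subgroup.normalizer
            (((T.subgroupOf N₁).map N₁.subtype : Subgroup X) : Set X) :=
          Subgroup.le_normalizer_map N₁.subtype ⟨g, hg, rfl⟩
        rw [hTYmap] at h1
        have h2 := hTN _ h1 (by rw [Subgroup.orderOf_coe]; exact hcop)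
        rw [Subgroup.mem_centralizer_iff] at h2 ⊢
        intro q hq
        apply Subtype.ext
        exact h2 q (Subgroup.mem_subgroupOf.mp hq)
      obtain ⟨M, hMn, hMidx⟩ := ih (Nat.card ↥N₁) hcardlt ↥N₁ (hsub X hX N₁) le_rfl
        (T.subgroupOf N₁) hTYp hTYidx hTYne hTYN
      -- the commutator subgroup of N₁ lies in M
      have hcardq : Nat.card (↥N₁ ⧸ M) = p := hMidx
      have hcyc : IsCyclic (↥N₁ ⧸ M) := isCyclic_of_prime_card hcardq
      have hcomm : ∀ a b : ↥N₁ ⧸ M, a * b = b * a := fun a b =>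
        (@IsCyclic.commGroup (↥N₁ ⧸ M) _ hcyc).mul_comm a b
      have hcomM : ⁅(⊤ : Subgroup ↥N₁), ⊤⁆ ≤ M := by
        rw [Subgroup.commutator_le]
        intro a _ b _
        rw [← QuotientGroup.eq_one_iff]
        have h1 : ((⁅a, b⁆ : ↥N₁) : ↥N₁ ⧸ M) =
            (a : ↥N₁ ⧸ M) * (b : ↥N₁ ⧸ M) * (a : ↥N₁ ⧸ M)⁻¹ * (b : ↥N₁ ⧸ M)⁻¹ := by
          rw [commutatorElement_def]; rfl
        rw [h1, hcomm (a : ↥N₁ ⧸ M) (b : ↥N₁ ⧸ M)]
        group
      have hTM : ¬ T.subgroupOf N₁ ≤ M := fun h =>
        hTYidx (hMidx ▸ Subgroup.index_dvd_of_le h)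
      obtain ⟨t, htT, htM⟩ := SetLike.not_le_iff_exists.mp hTM
      have htX : (t : X) ∈ T := Subgroup.mem_subgroupOf.mp htT
      have htc : (t : X) ∉ ⁅N₁, N₁⁆ := by
        intro h
        have h1 : (⁅(⊤ : Subgroup ↥N₁), (⊤ : Subgroup ↥N₁)⁆ : Subgroup ↥N₁).map N₁.subtype =
            ⁅N₁, N₁⁆ := by
          rw [Subgroup.map_commutator, ← MonoidHom.range_eq_map, Subgroup.range_subtype]
        rw [← h1] at h
        obtain ⟨t', ht', htt'⟩ := h
        have : t' = t := Subtype.ext htt'
        rw [this] at ht'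
        exact htM (hcomM ht')
      have htc' : (t : X) ∉ commutator X := by
        intro h
        rw [commutator_def] at h
        have h1 : (t : X) ∈ T ⊓ ⁅(⊤ : Subgroup X), ⊤⁆ := Subgroup.mem_inf.mpr ⟨htX, h⟩
        rw [heq] at h1
        exact htc h1.2
      obtain ⟨j, hj⟩ := hTp ⟨(t : X), htX⟩
      have hj' : (t : X) ^ (p ^ j) = 1 := by
        have := congrArg Subtype.val hj
        simpa using this
      exact exists_normal_index_p_of_not_mem_commutator (t : X) j hj' htc'

end Cfsg.Agent.Lib.Helper14
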