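import Cfsg.Agent.S1987
import Cfsg.Agent.Lib.Helper14.KInfIso
import Cfsg.Agent.Lib.Helper12.CN

set_option autoImplicit false
set_option maxHeartbeats 1000000
set_option linter.unusedVariables false
set_option linter.style.haveILetI false

/-!
The lower K-infinity subgroup of a finite `p`-group contains its centralizer, and the element
form of its control of strong fusion.
-/

namespace Cfsg.Agent.Lib.Helper14.KInfCentric

open Cfsg Cfsg.Agent.Lib.Helper14

universe u

theorem kInfLower_normal (P : Type u) [Group P] : (kInfLower P).Normal := by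
  constructor
  intro n hn g
  have h := map_equiv_kInfLower (MulAut.conj g)
  rw [← h]
  exact ⟨n, hn, rfl⟩

theorem normal_abelian_le_kInfLower {P : Type u} [Group P] (A : Subgroup P) [A.Normal]
    (hA : IsMulCommutative ↥A) : A ≤ kInfLower P := by
  have h1 : A ∈ kLowerStarFamily (kSeqOdd P 0) := normal_abelian_mem_kLowerStarFamily A hA _
  have h2 : A ≤ kSeqEven P 0 := le_sSup h1
  exact h2.trans (le_iSup (fun n => kSeqEven P n) 0)

/-- the lower K-infinity subgroup of a finite `p`-group contains its centralizer -/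
theorem kinf_centric {P : Type u} [Group P] [Finite P] {p : ℕ} [Fact p.Prime] (hP : IsPGroup p P)
    (y : P) (hy : ∀ k ∈ kInfLower P, y * k = k * y) : y ∈ kInfLower P := by
  classical
  by_contra hyK
  obtain ⟨K, hK⟩ : ∃ K : Subgroup P, K = kInfLower P := ⟨_, rfl⟩
  rw [← hK] at hy hyK
  haveI hKn : K.Normal := hK ▸ kInfLower_normal P
  obtain ⟨C, hC⟩ : ∃ C : Subgroup P, C = Subgroup.centralizer (K : Set P) := ⟨_, rfl⟩
  have hCmem : ∀ x, x ∈ C ↔ ∀ k ∈ K, x * k = k * x := by
    intro x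
    rw [hC, Subgroup.mem_centralizer_iff]
    constructor
    · intro h k hk; exact (h k hk).symm
    · intro h k hk; exact (h k hk).symm
  have hCn : C.Normal := by
    constructor
    intro c hc g
    rw [hCmem] at hc ⊢
    intro k hk
    have h1 := hc (g⁻¹ * k * g) (by
      have := hKn.conj_mem k hk g⁻¹
      rwa [inv_inv] at this)
    calc g * c * g⁻¹ * k = g * (c * (g⁻¹ * k * g)) * g⁻¹ := by group
      _ = g * ((g⁻¹ * k * g) * c) * g⁻¹ := by rw [h1]
      _ = k * (g * c * g⁻¹) := by group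
  haveI : Group.IsNilpotent (P ⧸ K) := (hP.to_quotient K).isNilpotent
  obtain ⟨N', hN'⟩ : ∃ N' : Subgroup (P ⧸ K), N' = C.map (QuotientGroup.mk' K) := ⟨_, rfl⟩
  haveI hN'n : N'.Normal := by rw [hN']; exact hCn.map _ (QuotientGroup.mk'_surjective K)
  have hN'ne : N' ≠ ⊥ := by
    intro h
    have h1 : QuotientGroup.mk' K y ∈ N' := by rw [hN']; exact ⟨y, (hCmem y).mpr hy, rfl⟩
    rw [h, Subgroup.mem_bot] at h1
    exact hyK ((QuotientGroup.eq_one_iff y).mp h1)
  have h2 := Cfsg.Agent.Lib.Helper12.normal_inf_center_ne_bot' N' hN'ne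
  obtain ⟨t, ht, ht1⟩ : ∃ t ∈ N' ⊓ Subgroup.center (P ⧸ K), t ≠ 1 := by
    by_contra hcon
    push Not at hcon
    apply h2
    rw [eq_bot_iff]
    intro t ht
    exact Subgroup.mem_bot.mpr (hcon t ht)
  obtain ⟨htN, htZ⟩ := Subgroup.mem_inf.mp ht
  rw [hN'] at htN
  obtain ⟨y₁, hy₁C, rfl⟩ := htN
  have hy₁K : y₁ ∉ K := fun h => ht1 ((QuotientGroup.eq_one_iff y₁).mpr h)
  have hcomm : ∀ g : P, g * y₁ * g⁻¹ * y₁⁻¹ ∈ K := by
    intro g
    have h3 := Subgroup.mem_center_iff.mp htZ (QuotientGroup.mk' K g)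
    rw [← QuotientGroup.eq_one_iff]
    have h4 : ((g * y₁ * g⁻¹ * y₁⁻¹ : P) : P ⧸ K) =
        QuotientGroup.mk' K g * QuotientGroup.mk' K y₁ * (QuotientGroup.mk' K g)⁻¹ *
          (QuotientGroup.mk' K y₁)⁻¹ := rfl
    rw [h4, h3]
    group
  obtain ⟨A, hA⟩ : ∃ A : Subgroup P,
      A = Subgroup.closure (((C ⊓ K : Subgroup P) : Set P) ∪ {y₁}) := ⟨_, rfl⟩
  have hAc : IsMulCommutative ↥A := by
    rw [hA]
    apply Subgroup.isMulCommutative_closure
    intro a ha b hb
    rcases ha with ha | ha <;> rcases hb with hb | hb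
    · exact (hCmem a).mp (Subgroup.mem_inf.mp ha).1 b (Subgroup.mem_inf.mp hb).2
    · rw [Set.mem_singleton_iff] at hb
      subst hb
      exact ((hCmem b).mp hy₁C a (Subgroup.mem_inf.mp ha).2).symm
    · rw [Set.mem_singleton_iff] at ha
      subst ha
      exact (hCmem a).mp hy₁C b (Subgroup.mem_inf.mp hb).2
    · rw [Set.mem_singleton_iff] at ha hb
      rw [ha, hb]
  have hyA : y₁ ∈ A := by rw [hA]; exact Subgroup.subset_closure (Or.inr rfl)
  have hCKA : C ⊓ K ≤ A := by
    intro x hx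
    rw [hA]
    exact Subgroup.subset_closure (Or.inl hx)
  haveI hAn : A.Normal := by
    constructor
    intro n hn g
    have h5 : A.map (MulAut.conj g).toMonoidHom ≤ A := by
      rw [hA, MonoidHom.map_closure, Subgroup.closure_le, ← hA]
      rintro _ ⟨x, hx, rfl⟩
      show g * x * g⁻¹ ∈ A
      rcases hx with hx | hx
      · apply hCKA
        exact Subgroup.mem_inf.mpr ⟨hCn.conj_mem x (Subgroup.mem_inf.mp hx).1 g,
          hKn.conj_mem x (Subgroup.mem_inf.mp hx).2 g⟩
      · rw [Set.mem_singleton_iff] at hx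
        subst hx
        have e : g * x * g⁻¹ = (g * x * g⁻¹ * x⁻¹) * x := by group
        rw [e]
        refine mul_mem (hCKA (Subgroup.mem_inf.mpr ⟨?_, hcomm g⟩)) hyA
        exact mul_mem (hCn.conj_mem x hy₁C g) (inv_mem hy₁C)
    exact h5 ⟨n, hn, rfl⟩
  have hle := normal_abelian_le_kInfLower A hAc
  apply hy₁K
  rw [hK]
  exact hle hyA

/-- the lower K-infinity subgroup of a Sylow `p`-subgroup contains its centralizer in it -/
theorem induced_centric {G : Type u} [Group G] [Finite G] {p : ℕ} [Fact p.Prime] (P : Sylow p G)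
    (y : G) (hyP : y ∈ (P : Subgroup G))
    (hy : ∀ q ∈ Cfsg.inducedFunctor Cfsg.kInfLower (P : Subgroup G), y * q = q * y) :
    y ∈ Cfsg.inducedFunctor Cfsg.kInfLower (P : Subgroup G) := by
  have h1 : (⟨y, hyP⟩ : ↥(P : Subgroup G)) ∈ kInfLower ↥(P : Subgroup G) := by
    apply kinf_centric P.isPGroup'
    intro k hk
    apply Subtype.ext
    exact hy (k : G) ⟨k, hk, rfl⟩
  exact ⟨⟨y, hyP⟩, h1, rfl⟩

/-- element form of the control of strong fusion by the lower K-infinity subgroup -/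
theorem kinf_ctl {G : Type u} [Group G] [Finite G] {p : ℕ} [Fact p.Prime]
    (hst : ∀ (K R : Subgroup G) [hR : (R.subgroupOf K).Normal],
      Cfsg.IsNormalizerPStable p (↥K ⧸ R.subgroupOf K))
    (S : Sylow p G) (A : Set G) (hA : A ⊆ (S : Subgroup G)) (g : G)
    (hg : (fun a => g * a * g⁻¹) '' A ⊆ (S : Subgroup G)) :
    ∃ x ∈ Subgroup.normalizer
        ((Cfsg.inducedFunctor Cfsg.kInfLower (S : Subgroup G) : Subgroup G) : Set G),
      ∀ a ∈ A, g * a * g⁻¹ = x * a * x⁻¹ := by
  have hW := isCharPFunctor_kInfLower.{u} p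
  have h𝓦 : ∀ W' ∈ ({Cfsg.kInfLower} : Set (∀ (Q : Type u) [Group Q], Subgroup Q)),
      Cfsg.IsCharPFunctor.{u} p W' := by
    intro W' hW'
    rw [Set.mem_singleton_iff] at hW'
    exact hW' ▸ hW
  have hQG : ∀ (Y : Type u) [Group Y] [Finite Y], IsSection G Y → QStable p Y := by
    intro Y _ _ hY
    obtain ⟨K, R, hR, ⟨e⟩⟩ := hY
    exact qStable_of_equiv e (qStable_of_nps (hst K R))
  have hsf := sf_sections (G := G) h𝓦 (fun X _ _ hX hC _ => by
    intro T B y hB hBy
    have hQX : ∀ (Y : Type u) [Group Y] [Finite Y], IsSection X Y → QStable p Y := by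
      intro Y _ _ hY
      obtain ⟨K', R', hR', ⟨e⟩⟩ := hY
      exact hQG Y (((hX.subgroup K').quotient (R'.subgroupOf K')).of_equiv e)
    have hn2 := kinf_normal_of_qstable T hC hQX
    have hn : (Cfsg.inducedFunctor Cfsg.kInfLower (T : Subgroup X)).Normal := hn2.1
    exact Reach.step hB ⟨Cfsg.kInfLower, rfl, rfl⟩
      (by rw [Subgroup.normalizer_eq_top_iff.mpr hn]; exact Subgroup.mem_top y) hBy)
  obtain ⟨c, hc, hceq⟩ := hsf G (isSection_self G) S A g hA hg
  refine ⟨c, ?_, fun a ha => (hceq a ha).symm⟩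
  refine Cfsg.Agent.S1969.chain_mem_normalizer ?_ hc
  rintro _ ⟨W', hW', rfl⟩
  rw [Set.mem_singleton_iff] at hW'
  rw [hW']

end Cfsg.Agent.Lib.Helper14.KInfCentric
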