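import Mathlib
import Cfsg.Prelude
import Cfsg.Agent.Lib.Helper14.KInfStableA
import Cfsg.Agent.Lib.Helper14.KInfCrit
import Cfsg.Agent.Lib.Helper14.Cores

/-!
Chief factors below a critical subgroup: elements outside `O_p` act nontrivially on some chief
factor, `O_p` centralizes the chief factors below it, and an element acting quadratically but
nontrivially on a chief factor witnesses that a quotient is not `p`-stable.
-/

set_option autoImplicit false

namespace Cfsg.Agent.Lib.Helper14

open Cfsg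

universe u

variable {G : Type u} [Group G]

theorem comm_sup_normal_le (K V T : Subgroup G) [V.Normal] : ⁅K ⊔ V, T⁆ ≤ ⁅K, T⁆ ⊔ V := by
  have h1 : (⁅K ⊔ V, T⁆).map (QuotientGroup.mk' V) = (⁅K, T⁆).map (QuotientGroup.mk' V) := by
    rw [Subgroup.map_commutator, Subgroup.map_commutator, Subgroup.map_sup,
      QuotientGroup.map_mk'_self, sup_bot_eq]
  have h2 := Subgroup.le_comap_map (QuotientGroup.mk' V) ⁅K ⊔ V, T⁆
  rw [h1, Subgroup.comap_map_eq, QuotientGroup.ker_mk'] at h2
  exact h2

theorem card_lt_of_lt' [Finite G] {H K : Subgroup G} (h : H < K) : Nat.card H < Nat.card K :=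
  lt_of_not_ge (fun hge => h.ne (Subgroup.eq_of_le_of_card_ge h.le hge))

theorem exists_chief_below [Finite G] (D₀ N : Subgroup G) [hD : D₀.Normal] [hN : N.Normal]
    (h : D₀ < N) : ∃ N₁ : Subgroup G, D₀ ≤ N₁ ∧ IsChiefFactor N N₁ := by
  obtain ⟨N₁, -, hmax⟩ := Finite.exists_le_maximal
    (p := fun K : Subgroup G => K.Normal ∧ D₀ ≤ K ∧ K < N) (a := D₀) ⟨hD, le_rfl, h⟩
  obtain ⟨⟨h1, h2, h3⟩, h4⟩ := hmax
  refine ⟨N₁, h2, h3, hN, h1, fun M hM hNM hMN => ?_⟩
  by_cases hMeq : M = N
  · exact Or.inr hMeq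
  · left
    exact le_antisymm (h4 ⟨hM, h2.trans hNM, lt_of_le_of_ne hMN hMeq⟩ hNM) hNM

/-- An element of order prime to `p` centralizing `D₀` and every chief factor between `D₀` and the
normal `p`-subgroup `N` centralizes `N`. -/
theorem coprime_centralize_chief [Finite G] {p : ℕ} [Fact p.Prime] (y : G)
    (hy : (orderOf y).Coprime p) (D₀ : Subgroup G) [hD₀ : D₀.Normal]
    (hyD : ∀ d ∈ D₀, y * d = d * y) :
    ∀ (n : ℕ) (N : Subgroup G), N.Normal → D₀ ≤ N → IsPGroup p N → Nat.card N ≤ n →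
      (∀ U V : Subgroup G, IsChiefFactor U V → D₀ ≤ V → U ≤ N →
        ⁅U, Subgroup.zpowers y⁆ ≤ V) →
      ∀ x ∈ N, y * x = x * y := by
  intro n
  induction n with
  | zero =>
    intro N _ _ _ hcard
    exfalso
    have := Nat.card_pos (α := N)
    omega
  | succ n ih =>
    intro N hNn hDN hNp hcard hch
    by_cases hND : N ≤ D₀
    · exact fun x hx => hyD x (hND hx)
    · have hlt : D₀ < N := lt_of_le_not_ge hDN hND
      obtain ⟨N₁, hDN₁, hchief⟩ := exists_chief_below D₀ N hlt
      have hN₁lt : N₁ < N := hchief.1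
      have hcard₁ : Nat.card N₁ ≤ n := by
        have := card_lt_of_lt' hN₁lt
        omega
      have hc₁ := ih N₁ hchief.2.2.1 hDN₁ (hNp.to_le hN₁lt.le) hcard₁
        (fun U V hUV hDV hUN => hch U V hUV hDV (hUN.trans hN₁lt.le))
      have h2 := hch N N₁ hchief hDN₁ le_rfl
      refine coprime_centralize y hy N N₁ (hNp.to_le hN₁lt.le) hc₁ (fun v hv => ?_)
      apply h2
      rw [Subgroup.commutator_comm]
      exact Subgroup.commutator_mem_commutator (Subgroup.mem_zpowers y) hv

/-- A normal subgroup centralizing the chief factors of a series through `D ≤ A`, for a critical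
pair `(D, A)` of `O_p(G)` with `C_G(O_p(G)) ≤ O_p(G)`, lies in `O_p(G)`. -/
theorem le_pCore_of_centralizes_chief [Finite G] {p : ℕ} [hp : Fact p.Prime]
    (hC : Subgroup.centralizer ((pCore p G : Subgroup G) : Set G) ≤ pCore p G)
    (D A : Subgroup G) [hDn : D.Normal] [hAn : A.Normal] (hDA : D ≤ A) (hAT : A ≤ pCore p G)
    (hATD : ⁅A, pCore p G⁆ ≤ D) (hCA : pCore p G ⊓ Subgroup.centralizer (A : Set G) ≤ D)
    (M : Subgroup G) [hMn : M.Normal]
    (hM : ∀ U V : Subgroup G, IsChiefFactor U V → U ≤ A → (U ≤ D ∨ D ≤ V) → ⁅U, M⁆ ≤ V) :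
    M ≤ pCore p G := by
  have hTp : IsPGroup p (pCore p G) := pCore_isPGroup p
  have hAp : IsPGroup p A := hTp.to_le hAT
  have hDp : IsPGroup p D := hAp.to_le hDA
  refine le_pCore p hMn (isPGroup_of_coprime_trivial M (fun y hy hcop => ?_))
  have hz : Subgroup.zpowers y ≤ M := by rw [Subgroup.zpowers_le]; exact hy
  have hcD : ∀ d ∈ D, y * d = d * y := by
    refine coprime_centralize_chief y hcop ⊥
      (fun d hd => by rw [Subgroup.mem_bot] at hd; rw [hd, mul_one, one_mul])
      (Nat.card D) D hDn bot_le hDp le_rfl (fun U V hUV _ hUD => ?_)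
    exact (Subgroup.commutator_mono le_rfl hz).trans (hM U V hUV (hUD.trans hDA) (Or.inl hUD))
  have hcA : ∀ a ∈ A, y * a = a * y := by
    refine coprime_centralize_chief y hcop D hcD (Nat.card A) A hAn hDA hAp le_rfl
      (fun U V hUV hDV hUA => ?_)
    exact (Subgroup.commutator_mono le_rfl hz).trans (hM U V hUV hUA (Or.inr hDV))
  have hZA : Subgroup.zpowers y ≤ Subgroup.centralizer (A : Set G) := by
    rw [Subgroup.zpowers_le, Subgroup.mem_centralizer_iff]
    intro a ha
    exact (hcA a ha).symm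
  have hAZ : ⁅A, Subgroup.zpowers y⁆ = ⊥ := by
    rw [Subgroup.commutator_comm]
    exact Subgroup.commutator_eq_bot_iff_le_centralizer.mpr hZA
  have hts : ⁅⁅pCore p G, Subgroup.zpowers y⁆, A⁆ = ⊥ := by
    refine ts_step_bot ?_ ?_
    · rw [hAZ]
      exact Subgroup.commutator_bot_left _
    · exact comm_eq_bot_of_le (hATD.trans hDA) le_rfl hAZ
  have hTZ : ⁅pCore p G, Subgroup.zpowers y⁆ ≤ A :=
    ((le_inf (Subgroup.commutator_le_left _ _)
      (Subgroup.commutator_eq_bot_iff_le_centralizer.mp hts)).trans hCA).trans hDA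
  have hyT : ∀ t ∈ pCore p G, y * t * y⁻¹ * t⁻¹ ∈ A := by
    intro t ht
    apply hTZ
    rw [Subgroup.commutator_comm]
    exact Subgroup.commutator_mem_commutator (Subgroup.mem_zpowers _) ht
  have hcT := coprime_centralize y hcop (pCore p G) A hAp hcA hyT
  have hyT' : y ∈ pCore p G := by
    apply hC
    rw [Subgroup.mem_centralizer_iff]
    intro t ht
    exact (hcT t ht).symm
  obtain ⟨j, hj⟩ := hTp ⟨y, hyT'⟩
  have hj' : y ^ (p ^ j) = 1 := by simpa using congrArg Subtype.val hj
  have h6 : orderOf y = 1 :=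
    Nat.eq_one_of_dvd_coprimes (Nat.Coprime.pow_right j hcop) dvd_rfl
      (orderOf_dvd_of_pow_eq_one hj')
  exact orderOf_eq_one_iff.mp h6

/-- An element outside `O_p(G)` acts nontrivially on some chief factor of a series through a
critical pair. -/
theorem exists_chief_not_centralized [Finite G] {p : ℕ} [hp : Fact p.Prime]
    (hC : Subgroup.centralizer ((pCore p G : Subgroup G) : Set G) ≤ pCore p G)
    (D A : Subgroup G) [hDn : D.Normal] [hAn : A.Normal] (hDA : D ≤ A) (hAT : A ≤ pCore p G)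
    (hATD : ⁅A, pCore p G⁆ ≤ D) (hCA : pCore p G ⊓ Subgroup.centralizer (A : Set G) ≤ D)
    (g : G) (hg : g ∉ pCore p G) :
    ∃ U V : Subgroup G, IsChiefFactor U V ∧ U ≤ A ∧ (U ≤ D ∨ D ≤ V) ∧
      ¬ ⁅U, Subgroup.zpowers g⁆ ≤ V := by
  by_contra hcon
  push Not at hcon
  apply hg
  have hle : Subgroup.normalClosure ({g} : Set G) ≤ pCore p G := by
    refine le_pCore_of_centralizes_chief hC D A hDA hAT hATD hCA _ (fun U V hUV hUA hcase => ?_)
    have hVn : V.Normal := hUV.2.2.1
    have hUn : U.Normal := hUV.2.1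
    have h1 : Subgroup.zpowers g ≤ centMod ⊤ U V :=
      (le_centMod_iff ⊤ U V _).mpr ⟨le_top, hcon U V hUV hUA hcase⟩
    have hn : (centMod ⊤ U V).Normal := centMod_normal ⊤ U V
    have h2 : Subgroup.normalClosure ({g} : Set G) ≤ centMod ⊤ U V :=
      Subgroup.normalClosure_le_normal (by
        intro x hx
        rw [Set.mem_singleton_iff] at hx
        rw [hx]
        exact h1 (Subgroup.mem_zpowers g))
    exact ((le_centMod_iff ⊤ U V _).mp h2).2
  exact hle (Subgroup.subset_normalClosure (Set.mem_singleton g))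

/-- `O_p(G)` centralizes every chief factor of `G` below it. -/
theorem pCore_comm_chief_le [Finite G] {p : ℕ} [hp : Fact p.Prime] {U V : Subgroup G}
    (hUV : IsChiefFactor U V) (hUT : U ≤ pCore p G) : ⁅U, pCore p G⁆ ≤ V := by
  obtain ⟨hlt, hUn, hVn, hmin⟩ := hUV
  have hTp : IsPGroup p (pCore p G) := pCore_isPGroup p
  have hnil : Group.IsNilpotent ↥(pCore p G) := hTp.isNilpotent
  have hn : (⁅U, pCore p G⁆ ⊔ V).Normal := inferInstance
  rcases hmin _ hn le_sup_right (sup_le (Subgroup.commutator_le_left U _) hlt.le) with h | h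
  · rw [← h]; exact le_sup_left
  · exfalso
    have key : ∀ n : ℕ, U ≤ iterCommutator U (pCore p G) n ⊔ V := by
      intro n
      induction n with
      | zero => exact le_sup_left
      | succ n ih =>
        calc U = ⁅U, pCore p G⁆ ⊔ V := h.symm
          _ ≤ ⁅iterCommutator U (pCore p G) n ⊔ V, pCore p G⁆ ⊔ V :=
            sup_le_sup_right (Subgroup.commutator_mono ih le_rfl) V
          _ ≤ (⁅iterCommutator U (pCore p G) n, pCore p G⁆ ⊔ V) ⊔ V :=
            sup_le_sup_right (comm_sup_normal_le _ _ _) V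
          _ = iterCommutator U (pCore p G) (n + 1) ⊔ V := by
            rw [sup_assoc, sup_idem]; rfl
    obtain ⟨m, hm⟩ := iter_eq_bot_of_nilpotent (pCore p G) U hUT
    have h3 := key m
    rw [hm, bot_sup_eq] at h3
    exact (not_le_of_gt hlt) h3

end Cfsg.Agent.Lib.Helper14
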