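import Mathlib
import Cfsg.Prelude
import Cfsg.Agent.Lib.Helper14.KInfChiefA
import Cfsg.Agent.Lib.Helper14.KInfMax
import Cfsg.Agent.Lib.Helper14.ConjAux

/-!
A Clifford-type complement lemma for an abelian chief factor `U / V` restricted to a subnormal
subgroup `H`: every `H`-invariant subgroup between `V` and `U` has an `H`-invariant complement.
Consequence: a subgroup of `H` acting quadratically on an `H`-invariant subgroup and on the
quotient by it acts quadratically on the chief factor.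
-/

set_option autoImplicit false

namespace Cfsg.Agent.Lib.Helper14

open Cfsg

universe u

variable {G : Type u} [Group G]

/-- `M` lies between `V` and `U` and is normalized by `H`. -/
def InvB (U V H M : Subgroup G) : Prop :=
  V ≤ M ∧ M ≤ U ∧ H ≤ Subgroup.normalizer (M : Set G)

/-- `M` is minimal among the `H`-invariant subgroups strictly above `V` inside `U`. -/
def HMin (U V H M : Subgroup G) : Prop :=
  Minimal (fun K : Subgroup G => InvB U V H K ∧ V < K) M

/-- `U` is generated modulo `V` by the `H`-minimal subgroups. -/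
def GenB (U V H : Subgroup G) : Prop :=
  U ≤ sSup {M : Subgroup G | HMin U V H M} ⊔ V

theorem le_normalizer_sup {H A B : Subgroup G} (hA : H ≤ Subgroup.normalizer (A : Set G))
    (hB : H ≤ Subgroup.normalizer (B : Set G)) :
    H ≤ Subgroup.normalizer ((A ⊔ B : Subgroup G) : Set G) := by
  intro h hh
  apply mem_normalizer_of_map_conj_eq
  rw [Subgroup.map_sup, map_conj_eq_self_of_mem_normalizer (hA hh),
    map_conj_eq_self_of_mem_normalizer (hB hh)]

theorem le_normalizer_inf {H A B : Subgroup G} (hA : H ≤ Subgroup.normalizer (A : Set G))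
    (hB : H ≤ Subgroup.normalizer (B : Set G)) :
    H ≤ Subgroup.normalizer ((A ⊓ B : Subgroup G) : Set G) :=
  (le_inf hA hB).trans Subgroup.inf_normalizer_le_normalizer_inf

theorem invB_map_conj {U V H M : Subgroup G} [hU : U.Normal] [hV : V.Normal]
    (h : InvB U V H M) {k : G} (hk : k ∈ Subgroup.normalizer (H : Set G)) :
    InvB U V H (M.map (MulAut.conj k).toMonoidHom) := by
  obtain ⟨h1, h2, h3⟩ := h
  have eV : V.map (MulAut.conj k).toMonoidHom = V :=
    map_conj_eq_self_of_mem_normalizer (le_normalizer_of_normal' V ⊤ (Subgroup.mem_top k))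
  have eU : U.map (MulAut.conj k).toMonoidHom = U :=
    map_conj_eq_self_of_mem_normalizer (le_normalizer_of_normal' U ⊤ (Subgroup.mem_top k))
  refine ⟨?_, ?_, ?_⟩
  · rw [← eV]; exact Subgroup.map_mono h1
  · rw [← eU]; exact Subgroup.map_mono h2
  · intro x hx
    rw [mem_normalizer_map_conj_iff]
    apply h3
    have := (Subgroup.mem_normalizer_iff.mp (inv_mem hk) x).mp hx
    simpa using this

theorem hMin_map_conj {U V H M : Subgroup G} [hU : U.Normal] [hV : V.Normal]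
    (h : HMin U V H M) {k : G} (hk : k ∈ Subgroup.normalizer (H : Set G)) :
    HMin U V H (M.map (MulAut.conj k).toMonoidHom) := by
  obtain ⟨⟨h1, h2⟩, h3⟩ := h
  have eV : ∀ x : G, V.map (MulAut.conj x).toMonoidHom = V := fun x =>
    map_conj_eq_self_of_mem_normalizer (le_normalizer_of_normal' V ⊤ (Subgroup.mem_top x))
  refine ⟨⟨invB_map_conj h1 hk, ?_⟩, ?_⟩
  · have := (Subgroup.map_lt_map_iff_of_injective (f := (MulAut.conj k).toMonoidHom)
      (MulAut.conj k).injective).mpr h2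
    rw [← eV k]
    exact this
  · rintro M' ⟨hM'1, hM'2⟩ hle
    have h4 : M'.map (MulAut.conj k⁻¹).toMonoidHom ≤ M := by
      rw [map_conj_le_iff, inv_inv]; exact hle
    have h5 : V < M'.map (MulAut.conj k⁻¹).toMonoidHom := by
      have := (Subgroup.map_lt_map_iff_of_injective (f := (MulAut.conj k⁻¹).toMonoidHom)
        (MulAut.conj k⁻¹).injective).mpr hM'2
      rw [← eV k⁻¹]
      exact this
    have h6 := h3 ⟨invB_map_conj hM'1 (inv_mem hk), h5⟩ h4
    rw [map_conj_le_iff]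
    exact h6

theorem exists_hMin [Finite G] {U V H M : Subgroup G} (h : InvB U V H M) (hlt : V < M) :
    ∃ M₀ : Subgroup G, HMin U V H M₀ ∧ M₀ ≤ M := by
  obtain ⟨M₀, hle, hmin⟩ := Finite.exists_le_minimal
    (p := fun K : Subgroup G => InvB U V H K ∧ V < K) (a := M) ⟨h, hlt⟩
  exact ⟨M₀, hmin, hle⟩

theorem genB_top {U V : Subgroup G} (hUV : IsChiefFactor U V) : GenB U V ⊤ := by
  obtain ⟨hlt, hUn, hVn, hmin⟩ := hUV
  have hU : HMin U V ⊤ U := by
    refine ⟨⟨⟨hlt.le, le_rfl, le_normalizer_of_normal' U ⊤⟩, hlt⟩, ?_⟩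
    rintro M' ⟨⟨h1, h2, h3⟩, h4⟩ -
    have hn : M'.Normal := Subgroup.normalizer_eq_top_iff.mp (top_le_iff.mp h3)
    rcases hmin M' hn h1 h2 with h | h
    · exact absurd h h4.ne'
    · exact h.ge
  exact (le_sSup (a := U) hU).trans le_sup_left

theorem genB_step [Finite G] {U V H K : Subgroup G} [hU : U.Normal] [hV : V.Normal]
    (hK : GenB U V K) (hHK : H ≤ K) (hn : K ≤ Subgroup.normalizer (H : Set G)) :
    GenB U V H := by
  refine hK.trans (sup_le (sSup_le ?_) le_sup_right)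
  intro M hM
  obtain ⟨⟨⟨hM1, hM2, hM3⟩, hM4⟩, hM5⟩ := hM
  obtain ⟨P, hP⟩ : ∃ P : Subgroup G,
      P = sSup {M' : Subgroup G | HMin U V H M' ∧ M' ≤ M} ⊔ V := ⟨_, rfl⟩
  have hPM : P ≤ M := by
    rw [hP]
    exact sup_le (sSup_le fun M' hM' => hM'.2) hM1
  have hVP : V ≤ P := by rw [hP]; exact le_sup_right
  have hPinv : InvB U V K P := by
    refine ⟨hVP, hPM.trans hM2, ?_⟩
    have hmap : ∀ k ∈ K, P.map (MulAut.conj k).toMonoidHom ≤ P := by
      intro k hk
      rw [Subgroup.map_le_iff_le_comap]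
      nth_rewrite 1 [hP]
      refine sup_le (sSup_le ?_) ?_
      · rintro M' ⟨hM'1, hM'2⟩
        rw [← Subgroup.map_le_iff_le_comap, hP]
        refine le_sup_of_le_left (le_sSup ⟨hMin_map_conj hM'1 (hn hk), ?_⟩)
        have := Subgroup.map_mono (f := (MulAut.conj k).toMonoidHom) hM'2
        rwa [map_conj_eq_self_of_mem_normalizer (hM3 hk)] at this
      · rw [← Subgroup.map_le_iff_le_comap,
          map_conj_eq_self_of_mem_normalizer (le_normalizer_of_normal' V ⊤ (Subgroup.mem_top k))]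
        exact hVP
    intro k hk
    apply mem_normalizer_of_map_conj_eq
    refine le_antisymm (hmap k hk) ?_
    have h1 := Subgroup.map_mono (f := (MulAut.conj k).toMonoidHom) (hmap k⁻¹ (inv_mem hk))
    have h2 := map_conj_inv_map_conj P k⁻¹
    rw [inv_inv] at h2
    rw [h2] at h1
    exact h1
  obtain ⟨M₀, hM₀, hM₀M⟩ := exists_hMin (H := H) (U := U) (V := V) (M := M)
    ⟨hM1, hM2, hHK.trans hM3⟩ hM4
  have hM₀P : M₀ ≤ P := by
    rw [hP]
    exact le_sup_of_le_left (le_sSup ⟨hM₀, hM₀M⟩)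
  have hVltP : V < P := lt_of_lt_of_le hM₀.1.2 hM₀P
  have hMP : M ≤ P := hM5 ⟨hPinv, hVltP⟩ hPM
  refine hMP.trans ?_
  rw [hP]
  exact sup_le_sup_right (sSup_le_sSup fun M' hM' => hM'.1) V

theorem genB_of_isSubnormal [Finite G] {U V H : Subgroup G} (hUV : IsChiefFactor U V)
    (hH : H.IsSubnormal) : GenB U V H := by
  have hUn : U.Normal := hUV.2.1
  have hVn : V.Normal := hUV.2.2.1
  induction hH with
  | top => exact genB_top hUV
  | step H K h_le _ hN ih =>
    exact genB_step ih h_le ((Subgroup.normal_subgroupOf_iff_le_normalizer h_le).mp hN)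

theorem mem_sup_of_le_normalizer {R M : Subgroup G} (h : M ≤ Subgroup.normalizer (R : Set G))
    {x : G} (hx : x ∈ R ⊔ M) : ∃ r ∈ R, ∃ m ∈ M, x = r * m := by
  rw [Subgroup.sup_eq_closure] at hx
  refine Subgroup.closure_induction (p := fun x _ => ∃ r ∈ R, ∃ m ∈ M, x = r * m)
    ?_ ?_ ?_ ?_ hx
  · intro y hy
    rcases hy with hy | hy
    · exact ⟨y, hy, 1, one_mem M, (mul_one y).symm⟩
    · exact ⟨1, one_mem R, y, hy, (one_mul y).symm⟩
  · exact ⟨1, one_mem R, 1, one_mem M, (mul_one 1).symm⟩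
  · rintro a b _ _ ⟨r, hr, m, hm, rfl⟩ ⟨r', hr', m', hm', rfl⟩
    refine ⟨r * (m * r' * m⁻¹), mul_mem hr ((Subgroup.mem_normalizer_iff.mp (h hm) r').mp hr'),
      m * m', mul_mem hm hm', by group⟩
  · rintro a _ ⟨r, hr, m, hm, rfl⟩
    refine ⟨m⁻¹ * r⁻¹ * m⁻¹⁻¹,
      (Subgroup.mem_normalizer_iff.mp (h (inv_mem hm)) r⁻¹).mp (inv_mem hr), m⁻¹, inv_mem hm,
      by group⟩

theorem le_normalizer_of_between {U V X : Subgroup G} (hab : ⁅U, U⁆ ≤ V) (hVX : V ≤ X)
    (hXU : X ≤ U) : U ≤ Subgroup.normalizer (X : Set G) :=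
  Subgroup.le_normalizer_iff_commutator_le_left.mpr
    ((Subgroup.commutator_mono hXU le_rfl).trans (hab.trans hVX))

theorem exists_compl_of_genB [Finite G] {U V H X₁ : Subgroup G} (hgen : GenB U V H)
    (hab : ⁅U, U⁆ ≤ V) (hX₁ : InvB U V H X₁) (hVU : V ≤ U)
    (hHV : H ≤ Subgroup.normalizer (V : Set G)) :
    ∃ X₂ : Subgroup G, InvB U V H X₂ ∧ X₁ ⊓ X₂ ≤ V ∧ U ≤ X₁ ⊔ X₂ := by
  obtain ⟨X₂, -, hmax⟩ := Finite.exists_le_maximal
    (p := fun K : Subgroup G => InvB U V H K ∧ X₁ ⊓ K ≤ V) (a := V)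
    ⟨⟨le_rfl, hVU, hHV⟩, inf_le_right⟩
  obtain ⟨⟨hX₂, hinf⟩, hmax⟩ := hmax
  refine ⟨X₂, hX₂, hinf, ?_⟩
  by_contra hnot
  have hex : ∃ M : Subgroup G, HMin U V H M ∧ ¬ M ≤ X₁ ⊔ X₂ := by
    by_contra hcon
    push Not at hcon
    exact hnot (hgen.trans (sup_le (sSup_le fun M hM => hcon M hM) (hX₂.1.trans le_sup_right)))
  obtain ⟨M, hM, hMn⟩ := hex
  obtain ⟨⟨hMinv, hVM⟩, hMmin⟩ := hM
  have hsupinv : InvB U V H (X₁ ⊔ X₂) :=
    ⟨hX₂.1.trans le_sup_right, sup_le hX₁.2.1 hX₂.2.1, le_normalizer_sup hX₁.2.2 hX₂.2.2⟩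
  have hMinf : M ⊓ (X₁ ⊔ X₂) = V := by
    have hinv : InvB U V H (M ⊓ (X₁ ⊔ X₂)) :=
      ⟨le_inf hMinv.1 hsupinv.1, inf_le_left.trans hMinv.2.1,
        le_normalizer_inf hMinv.2.2 hsupinv.2.2⟩
    by_contra hne
    have hlt : V < M ⊓ (X₁ ⊔ X₂) := lt_of_le_of_ne hinv.1 (Ne.symm hne)
    exact hMn ((hMmin ⟨hinv, hlt⟩ inf_le_left).trans inf_le_right)
  have hnew : InvB U V H (X₂ ⊔ M) :=
    ⟨hX₂.1.trans le_sup_left, sup_le hX₂.2.1 hMinv.2.1, le_normalizer_sup hX₂.2.2 hMinv.2.2⟩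
  have hnewinf : X₁ ⊓ (X₂ ⊔ M) ≤ V := by
    intro x hx
    obtain ⟨hx1, hx2⟩ := Subgroup.mem_inf.mp hx
    obtain ⟨r, hr, m, hm, rfl⟩ := mem_sup_of_le_normalizer
      (hMinv.2.1.trans (le_normalizer_of_between hab hX₂.1 hX₂.2.1)) hx2
    have hm' : m ∈ M ⊓ (X₁ ⊔ X₂) := by
      refine Subgroup.mem_inf.mpr ⟨hm, ?_⟩
      have e : m = r⁻¹ * (r * m) := by group
      rw [e]
      exact mul_mem (Subgroup.mem_sup_right (inv_mem hr)) (Subgroup.mem_sup_left hx1)
    rw [hMinf] at hm'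
    exact hinf (Subgroup.mem_inf.mpr ⟨hx1, mul_mem hr (hX₂.1 hm')⟩)
  have hle := hmax ⟨hnew, hnewinf⟩ le_sup_left
  exact hMn ((le_sup_right.trans hle).trans le_sup_right)

/-- Quadratic action on a chief factor from quadratic action on an invariant subgroup and on the
quotient by it, for a subgroup of a subnormal subgroup. -/
theorem quad_of_isSubnormal [Finite G] {U V H B X₁ : Subgroup G} (hUV : IsChiefFactor U V)
    (hab : ⁅U, U⁆ ≤ V) (hH : H.IsSubnormal) (hBH : B ≤ H) (hX₁ : InvB U V H X₁)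
    (h1 : ⁅⁅X₁, B⁆, B⁆ ≤ V) (h2 : ⁅⁅U, B⁆, B⁆ ≤ X₁) : ⁅⁅U, B⁆, B⁆ ≤ V := by
  have hUn : U.Normal := hUV.2.1
  have hVn : V.Normal := hUV.2.2.1
  obtain ⟨X₂, hX₂, hinf, hsup⟩ := exists_compl_of_genB (genB_of_isSubnormal hUV hH) hab hX₁
    hUV.1.le (le_normalizer_of_normal' V H)
  have hBX₂ : ⁅X₂, B⁆ ≤ X₂ :=
    Subgroup.le_normalizer_iff_commutator_le_left.mp (hBH.trans hX₂.2.2)
  have hX₁U : ⁅X₁, B⁆ ≤ U := (Subgroup.commutator_mono hX₁.2.1 le_rfl).trans
    (Subgroup.commutator_le_left U B)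
  have hX₂U : ⁅X₂, B⁆ ≤ U := (Subgroup.commutator_mono hX₂.2.1 le_rfl).trans
    (Subgroup.commutator_le_left U B)
  have step1 : ⁅U, B⁆ ≤ (⁅X₁, B⁆ ⊔ ⁅X₂, B⁆) ⊔ V := by
    refine (Subgroup.commutator_mono hsup le_rfl).trans ?_
    refine commutator_sup_le_of_normalizer ?_ (le_sup_of_le_left le_sup_left)
      (le_sup_of_le_left le_sup_right)
    exact (sup_le hX₁.2.1 hX₂.2.1).trans (le_normalizer_of_between hab le_sup_right
      (sup_le (sup_le hX₁U hX₂U) hUV.1.le))
  have step2 : ⁅⁅X₂, B⁆, B⁆ ≤ V := by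
    refine (le_inf ?_ ?_).trans hinf
    · exact (Subgroup.commutator_mono (Subgroup.commutator_mono hX₂.2.1 le_rfl) le_rfl).trans h2
    · exact (Subgroup.commutator_mono hBX₂ le_rfl).trans hBX₂
  refine (Subgroup.commutator_mono step1 le_rfl).trans ?_
  refine commutator_sup_le_of_normalizer (le_normalizer_of_normal' V _) ?_
    (Subgroup.commutator_le_left V B)
  exact commutator_sup_le_of_normalizer (le_normalizer_of_normal' V _) h1 step2

theorem isSubnormal_of_isNilpotent {Q : Type u} [Group Q] [Finite Q] [Group.IsNilpotent Q] :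
    ∀ (n : ℕ) (H : Subgroup Q), Nat.card Q - Nat.card H ≤ n → H.IsSubnormal := by
  intro n
  induction n with
  | zero =>
    intro H hcard
    have h1 : Nat.card H ≤ Nat.card Q := Subgroup.card_le_card_group H
    have h2 : H = ⊤ := Subgroup.eq_top_of_card_eq H (by omega)
    rw [h2]
    exact Subgroup.IsSubnormal.top
  | succ n ih =>
    intro H hcard
    by_cases hH : H = ⊤
    · rw [hH]; exact Subgroup.IsSubnormal.top
    · have hlt : H < ⊤ := lt_top_iff_ne_top.mpr hH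
      have hnc := Group.normalizerCondition_of_isNilpotent (G := Q) H hlt
      have h1 := card_lt_of_lt' hnc
      have h2 : Nat.card (Subgroup.normalizer (H : Set Q)) ≤ Nat.card Q :=
        Subgroup.card_le_card_group _
      have h3 := ih (Subgroup.normalizer (H : Set Q)) (by omega)
      exact Subgroup.IsSubnormal.step H _ Subgroup.le_normalizer h3 Subgroup.normal_in_normalizer

/-- A subgroup containing the normal subgroup `C` and lying in `O_p(G mod C)` is subnormal. -/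
theorem isSubnormal_of_le_pCore_comap [Finite G] {p : ℕ} [hp : Fact p.Prime] (C H : Subgroup G)
    [hC : C.Normal] (hCH : C ≤ H)
    (hHP : H ≤ (pCore p (G ⧸ C)).comap (QuotientGroup.mk' C)) : H.IsSubnormal := by
  have hPp : IsPGroup p (pCore p (G ⧸ C)) := pCore_isPGroup p
  have hnil : Group.IsNilpotent ↥(pCore p (G ⧸ C)) := hPp.isNilpotent
  have hle : H.map (QuotientGroup.mk' C) ≤ pCore p (G ⧸ C) :=
    Subgroup.map_le_iff_le_comap.mpr hHP
  have h1 : ((H.map (QuotientGroup.mk' C)).subgroupOf (pCore p (G ⧸ C))).IsSubnormal :=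
    isSubnormal_of_isNilpotent _ _ le_rfl
  have h2 : (pCore p (G ⧸ C)).IsSubnormal := (pCore_normal p (G ⧸ C)).isSubnormal
  have h3 : (H.map (QuotientGroup.mk' C)).IsSubnormal := Subgroup.IsSubnormal.trans hle h1 h2
  have h4 := Subgroup.IsSubnormal.comap (QuotientGroup.mk' C) h3
  rw [Subgroup.comap_map_eq, QuotientGroup.ker_mk', sup_eq_left.mpr hCH] at h4
  exact h4

end Cfsg.Agent.Lib.Helper14
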