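import Mathlib
import Cfsg.Prelude
import Cfsg.Agent.Lib.Helper14.KInfStableA

/-!
The core step of the `p`-stability argument: an element acting quadratically on a subgroup `U`
of a critical subgroup `A` and on `A / U` lies in a normal `p`-subgroup of `N(U)`.
-/

set_option autoImplicit false

namespace Cfsg.Agent.Lib.Helper14

open Cfsg

universe u

theorem stable_core {p : ℕ} [hp : Fact p.Prime] {X : Type u} [Group X] [Finite X]
    (hC : Subgroup.centralizer ((pCore p X : Subgroup X) : Set X) ≤ pCore p X)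
    (hQ : ∀ (Y : Type u) [Group Y] [Finite Y], IsSection X Y → QStable p Y)
    (D A : Subgroup X) [hAn : A.Normal] (hDA : D ≤ A) (hAT : A ≤ pCore p X)
    (hATD : ⁅A, pCore p X⁆ ≤ D)
    (hCA : pCore p X ⊓ Subgroup.centralizer (A : Set X) ≤ D)
    (U : Subgroup X) (hUA : U ≤ A) (hAU : A ≤ Subgroup.normalizer (U : Set X))
    (g : X) (hg : g ∈ Subgroup.normalizer (U : Set X))
    (h1 : ⁅⁅U, Subgroup.zpowers g⁆, Subgroup.zpowers g⁆ = ⊥)
    (h2 : ⁅⁅A, Subgroup.zpowers g⁆, Subgroup.zpowers g⁆ ≤ U) :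
    ∃ O : Subgroup X, g ∈ O ∧ O ≤ Subgroup.normalizer (U : Set X) ∧
      Subgroup.normalizer (U : Set X) ≤ Subgroup.normalizer (O : Set X) ∧ IsPGroup p O := by
  have hTp : IsPGroup p (pCore p X) := pCore_isPGroup p
  have hAp : IsPGroup p A := hTp.to_le hAT
  have hUp : IsPGroup p U := hAp.to_le hUA
  obtain ⟨O₁, hgO₁, hO₁H, hHO₁, hpow₁⟩ := hQ X (isSection_self X) U hUp g hg h1
  obtain ⟨H, hH⟩ : ∃ H : Subgroup X, H = Subgroup.normalizer (U : Set X) := ⟨_, rfl⟩
  rw [← hH] at hAU hg hO₁H hHO₁ ⊢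
  have hUn : (U.subgroupOf H).Normal := by rw [hH]; infer_instance
  have hsec : IsSection X (↥H ⧸ U.subgroupOf H) :=
    ((isSection_self X).subgroup H).quotient (U.subgroupOf H)
  obtain ⟨π, hπ⟩ : ∃ π : ↥H →* ↥H ⧸ U.subgroupOf H, π = QuotientGroup.mk' (U.subgroupOf H) :=
    ⟨_, rfl⟩
  have hπsurj : Function.Surjective π := hπ ▸ QuotientGroup.mk'_surjective _
  have hπker : ∀ x : ↥H, π x = 1 ↔ (x : X) ∈ U := by
    intro x
    rw [hπ, QuotientGroup.mk'_apply, QuotientGroup.eq_one_iff, Subgroup.mem_subgroupOf]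
  have hPp : IsPGroup p ((A.subgroupOf H).map π) := (hAp.comap_subtype).map π
  have hPn : ((A.subgroupOf H).map π).Normal :=
    Subgroup.Normal.map inferInstance π hπsurj
  have hgN : π ⟨g, hg⟩ ∈ Subgroup.normalizer (((A.subgroupOf H).map π : Subgroup _) : Set _) := by
    rw [Subgroup.normalizer_eq_top]
    exact Subgroup.mem_top _
  have hquad : ⁅⁅(A.subgroupOf H).map π, Subgroup.zpowers (π ⟨g, hg⟩)⁆,
      Subgroup.zpowers (π ⟨g, hg⟩)⁆ = ⊥ := by
    have e1 : Subgroup.zpowers (π ⟨g, hg⟩) = (Subgroup.zpowers (⟨g, hg⟩ : ↥H)).map π := by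
      rw [MonoidHom.map_zpowers]
    rw [e1, ← Subgroup.map_commutator, ← Subgroup.map_commutator, eq_bot_iff]
    rintro _ ⟨x, hx, rfl⟩
    rw [Subgroup.mem_bot, hπker]
    apply h2
    have h3 : (x : X) ∈ (⁅⁅A.subgroupOf H, Subgroup.zpowers (⟨g, hg⟩ : ↥H)⁆,
        Subgroup.zpowers (⟨g, hg⟩ : ↥H)⁆).map H.subtype := ⟨x, hx, rfl⟩
    rw [Subgroup.map_commutator, Subgroup.map_commutator, Subgroup.map_subgroupOf_eq_of_le hAU,
      MonoidHom.map_zpowers] at h3
    exact h3
  obtain ⟨O₂, hgO₂, -, hnO₂, hpow₂⟩ := hQ _ hsec _ hPp _ hgN hquad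
  have hO₂n : O₂.Normal := by
    rw [Subgroup.normalizer_eq_top] at hnO₂
    exact Subgroup.normalizer_eq_top_iff.mp (top_le_iff.mp hnO₂)
  have hcomapn : (O₂.comap π).Normal := inferInstance
  have hO₂H : (O₂.comap π).map H.subtype ≤ H := Subgroup.map_subtype_le _
  have hHO₂ : H ≤ Subgroup.normalizer (((O₂.comap π).map H.subtype : Subgroup X) : Set X) := by
    rw [← Subgroup.normal_subgroupOf_iff_le_normalizer hO₂H]
    have e : ((O₂.comap π).map H.subtype).subgroupOf H = O₂.comap π :=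
      Subgroup.comap_map_eq_self_of_injective (Subgroup.subtype_injective _) _
    rw [e]
    exact hcomapn
  refine ⟨O₁ ⊓ (O₂.comap π).map H.subtype, ⟨hgO₁, ⟨⟨g, hg⟩, hgO₂, rfl⟩⟩,
    inf_le_left.trans hO₁H, ?_, ?_⟩
  · intro h hh
    have n1 := hHO₁ hh
    have n2 := hHO₂ hh
    rw [Subgroup.mem_normalizer_iff] at n1 n2 ⊢
    intro x
    rw [Subgroup.mem_inf, Subgroup.mem_inf, n1 x, n2 x]
  · apply isPGroup_of_coprime_trivial
    intro y hy hcop
    obtain ⟨hy1, hy2⟩ := Subgroup.mem_inf.mp hy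
    -- `y` centralizes `U`
    obtain ⟨k₁, hk₁⟩ := hpow₁ y hy1
    have hyU : y ∈ Subgroup.centralizer (U : Set X) := mem_of_pow_mem_of_coprime _ y hcop k₁ hk₁
    have hyU' : ∀ w ∈ U, y * w = w * y := fun w hw =>
      (Subgroup.mem_centralizer_iff.mp hyU w hw).symm
    -- `y` moves `A` inside `U`
    obtain ⟨h, hh, rfl⟩ := hy2
    have hh' : π h ∈ O₂ := hh
    obtain ⟨k₂, hk₂⟩ := hpow₂ (π h) hh'
    have hcop2 : (orderOf (π h)).Coprime p := by
      have hd : orderOf (π h) ∣ orderOf (h : X) := by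
        rw [Subgroup.orderOf_coe]
        exact orderOf_map_dvd π h
      exact Nat.Coprime.coprime_dvd_left hd hcop
    have hcent := mem_of_pow_mem_of_coprime _ (π h) hcop2 k₂ hk₂
    have hyA : ∀ a ∈ A, (h : X) * a * (h : X)⁻¹ * a⁻¹ ∈ U := by
      intro a ha
      have ha' : π ⟨a, hAU ha⟩ ∈ (A.subgroupOf H).map π :=
        Subgroup.mem_map_of_mem π (by rw [Subgroup.mem_subgroupOf]; exact ha)
      have hc := Subgroup.mem_centralizer_iff.mp hcent _ ha'
      have h5 : π (h * ⟨a, hAU ha⟩ * h⁻¹ * (⟨a, hAU ha⟩ : ↥H)⁻¹) = 1 := by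
        rw [map_mul, map_mul, map_mul, map_inv, map_inv, ← hc]
        group
      exact (hπker _).mp h5
    have hcA := coprime_centralize (h : X) hcop A U hUp hyU' hyA
    -- `y` centralizes `A`, hence `T`
    have hZA : Subgroup.zpowers (h : X) ≤ Subgroup.centralizer (A : Set X) := by
      rw [Subgroup.zpowers_le, Subgroup.mem_centralizer_iff]
      intro a ha
      exact (hcA a ha).symm
    have hAZ : ⁅A, Subgroup.zpowers (h : X)⁆ = ⊥ := by
      rw [Subgroup.commutator_comm]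
      exact Subgroup.commutator_eq_bot_iff_le_centralizer.mpr hZA
    have hts : ⁅⁅pCore p X, Subgroup.zpowers (h : X)⁆, A⁆ = ⊥ := by
      refine ts_step_bot ?_ ?_
      · rw [hAZ]
        exact Subgroup.commutator_bot_left _
      · exact comm_eq_bot_of_le (hATD.trans hDA) le_rfl hAZ
    have hTZ : ⁅pCore p X, Subgroup.zpowers (h : X)⁆ ≤ A :=
      ((le_inf (Subgroup.commutator_le_left _ _)
        (Subgroup.commutator_eq_bot_iff_le_centralizer.mp hts)).trans hCA).trans hDA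
    have hyT : ∀ t ∈ pCore p X, (h : X) * t * (h : X)⁻¹ * t⁻¹ ∈ A := by
      intro t ht
      apply hTZ
      rw [Subgroup.commutator_comm]
      exact Subgroup.commutator_mem_commutator (Subgroup.mem_zpowers _) ht
    have hcT := coprime_centralize (h : X) hcop (pCore p X) A hAp hcA hyT
    have hyT' : (h : X) ∈ pCore p X := by
      apply hC
      rw [Subgroup.mem_centralizer_iff]
      intro t ht
      exact (hcT t ht).symm
    obtain ⟨j, hj⟩ := hTp ⟨(h : X), hyT'⟩
    have hj' : (h : X) ^ (p ^ j) = 1 := by simpa using congrArg Subtype.val hj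
    have h6 : orderOf (h : X) = 1 :=
      Nat.eq_one_of_dvd_coprimes (Nat.Coprime.pow_right j hcop) dvd_rfl
        (orderOf_dvd_of_pow_eq_one hj')
    exact orderOf_eq_one_iff.mp h6

/-- An element acting quadratically on the factors of a normal series `1 ≤ U ≤ A` of a critical
subgroup lies in `O_p`. -/
theorem stable_series {p : ℕ} [hp : Fact p.Prime] {X : Type u} [Group X] [Finite X]
    (hC : Subgroup.centralizer ((pCore p X : Subgroup X) : Set X) ≤ pCore p X)
    (hQ : ∀ (Y : Type u) [Group Y] [Finite Y], IsSection X Y → QStable p Y)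
    (D A : Subgroup X) [hAn : A.Normal] (hDA : D ≤ A) (hAT : A ≤ pCore p X)
    (hATD : ⁅A, pCore p X⁆ ≤ D)
    (hCA : pCore p X ⊓ Subgroup.centralizer (A : Set X) ≤ D)
    (U : Subgroup X) [hUn : U.Normal] (hUA : U ≤ A) (g : X)
    (h1 : ⁅⁅U, Subgroup.zpowers g⁆, Subgroup.zpowers g⁆ = ⊥)
    (h2 : ⁅⁅A, Subgroup.zpowers g⁆, Subgroup.zpowers g⁆ ≤ U) : g ∈ pCore p X := by
  obtain ⟨O, hgO, -, hnO, hOp⟩ := stable_core hC hQ D A hDA hAT hATD hCA U hUA
    (le_normalizer_of_normal' U A) g (le_normalizer_of_normal' U (Subgroup.zpowers g)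
      (Subgroup.mem_zpowers g)) h1 h2
  have hOn : O.Normal := by
    rw [Subgroup.normalizer_eq_top] at hnO
    exact Subgroup.normalizer_eq_top_iff.mp (top_le_iff.mp hnO)
  exact le_pCore p hOn hOp hgO

end Cfsg.Agent.Lib.Helper14
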