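import Mathlib
import Cfsg.Prelude
import Cfsg.Agent.Lib.Helper14.KInfStableB
import Cfsg.Agent.Lib.Helper14.KInfCrit

/-!
The K-infinity subgroups of a Sylow `p`-subgroup are normal in a group `X` with
`C_X(O_p(X)) ≤ O_p(X)` all of whose sections are `p`-stable (in the elementwise form `QStable`).
-/

set_option autoImplicit false

namespace Cfsg.Agent.Lib.Helper14

open Cfsg

universe u

/-- The endgame: a `p`-subgroup `B` which lies in `O_p` modulo the centralizer of a normal
subgroup `D` and centralizes `C(D)` modulo `O_p` lies in `O_p`. -/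
theorem stable_endgame {p : ℕ} [hp : Fact p.Prime] {X : Type u} [Group X] [Finite X]
    (hQ : QStable p X) (D : Subgroup X) [hDn : D.Normal] (hDp : IsPGroup p D)
    (B : Subgroup X) (hBp : IsPGroup p B) (hDq : ⁅⁅D, B⁆, B⁆ = ⊥)
    (hstar : ∀ n ∈ Subgroup.centralizer (D : Set X), ∀ b ∈ B, n * b * n⁻¹ * b⁻¹ ∈ pCore p X) :
    B ≤ pCore p X := by
  have hTp : IsPGroup p (pCore p X) := pCore_isPGroup p
  obtain ⟨C, hCdef⟩ : ∃ C : Subgroup X, C = Subgroup.centralizer (D : Set X) := ⟨_, rfl⟩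
  have hCn : C.Normal := hCdef ▸ Subgroup.normal_centralizer
  rw [← hCdef] at hstar
  obtain ⟨πC, hπC⟩ : ∃ πC : X →* X ⧸ C, πC = QuotientGroup.mk' C := ⟨_, rfl⟩
  obtain ⟨πT, hπT⟩ : ∃ πT : X →* X ⧸ pCore p X, πT = QuotientGroup.mk' (pCore p X) := ⟨_, rfl⟩
  have hπCsurj : Function.Surjective πC := hπC ▸ QuotientGroup.mk'_surjective _
  have hπTsurj : Function.Surjective πT := hπT ▸ QuotientGroup.mk'_surjective _
  have hπCker : ∀ x : X, πC x = 1 ↔ x ∈ C := by
    intro x
    rw [hπC, QuotientGroup.mk'_apply, QuotientGroup.eq_one_iff]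
  have hπTker : ∀ x : X, πT x = 1 ↔ x ∈ pCore p X := by
    intro x
    rw [hπT, QuotientGroup.mk'_apply, QuotientGroup.eq_one_iff]
  have hCmapn : (C.map πT).Normal := Subgroup.Normal.map hCn πT hπTsurj
  obtain ⟨M, hM⟩ : ∃ M : Subgroup X, M = (Subgroup.centralizer ((C.map πT : Subgroup _) : Set _)).comap πT :=
    ⟨_, rfl⟩
  have hMn : M.Normal := by rw [hM]; infer_instance
  obtain ⟨OD, hOD⟩ : ∃ OD : Subgroup X, OD = (pCore p (X ⧸ C)).comap πC := ⟨_, rfl⟩
  have hODn : OD.Normal := by rw [hOD]; infer_instance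
  have hEn : (M ⊓ OD).Normal := inferInstance
  have hZn : (C ⊓ (M ⊓ OD)).Normal := inferInstance
  have hmemM : ∀ y : X, y ∈ M ↔ ∀ n ∈ C, n * y * n⁻¹ * y⁻¹ ∈ pCore p X := by
    intro y
    rw [hM, Subgroup.mem_comap, Subgroup.mem_centralizer_iff]
    constructor
    · intro h n hn
      have h1 := h (πT n) (Subgroup.mem_map_of_mem πT hn)
      rw [← hπTker, map_mul, map_mul, map_mul, map_inv, map_inv, h1]
      group
    · rintro h _ ⟨n, hn, rfl⟩
      have h1 := (hπTker _).mpr (h n hn)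
      rw [map_mul, map_mul, map_mul, map_inv, map_inv] at h1
      have h2 : πT n * πT y = (πT n * πT y * (πT n)⁻¹ * (πT y)⁻¹) * (πT y * πT n) := by group
      rw [h2, h1, one_mul]
  refine le_pCore_of_central_mod (M ⊓ OD) (C ⊓ (M ⊓ OD)) ?_ inf_le_right ?_ ?_ B ?_ hBp
  · -- `T ≤ E`
    intro t ht
    refine Subgroup.mem_inf.mpr ⟨?_, ?_⟩
    · rw [hmemM]
      intro n _
      have h1 : n * t * n⁻¹ ∈ pCore p X := (pCore_normal p X).conj_mem t ht n
      exact mul_mem h1 (inv_mem ht)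
    · rw [hOD, Subgroup.mem_comap]
      have hn : ((pCore p X).map πC).Normal := Subgroup.Normal.map (pCore_normal p X) πC hπCsurj
      exact le_pCore p hn (hTp.map πC) (Subgroup.mem_map_of_mem πC ht)
  · intro n hn y hy
    exact (hmemM y).mp (Subgroup.mem_inf.mp hy).1 n (Subgroup.mem_inf.mp hn).1
  · intro y hy
    have h1 : πC y ∈ pCore p (X ⧸ C) := by
      have := (Subgroup.mem_inf.mp hy).2
      rw [hOD] at this
      exact this
    obtain ⟨k, hk⟩ := (pCore_isPGroup p) ⟨_, h1⟩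
    have hk' : πC y ^ (p ^ k) = 1 := by simpa using congrArg Subtype.val hk
    rw [← map_pow, hπCker] at hk'
    exact ⟨k, Subgroup.mem_inf.mpr ⟨hk', pow_mem hy _⟩⟩
  · intro b hb
    refine Subgroup.mem_inf.mpr ⟨?_, ?_⟩
    · rw [hmemM]
      intro n hn
      exact hstar n hn b hb
    · have hz : Subgroup.zpowers b ≤ B := by rw [Subgroup.zpowers_le]; exact hb
      obtain ⟨O, hbO, -, hnO, hpow⟩ := hQ D hDp b
        (le_normalizer_of_normal' D (Subgroup.zpowers b) (Subgroup.mem_zpowers b))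
        (comm_eq_bot_of_le (Subgroup.commutator_mono le_rfl hz) hz hDq)
      have hOn : O.Normal := by
        rw [Subgroup.normalizer_eq_top] at hnO
        exact Subgroup.normalizer_eq_top_iff.mp (top_le_iff.mp hnO)
      have hOmn : (O.map πC).Normal := Subgroup.Normal.map hOn πC hπCsurj
      have hOmp : IsPGroup p (O.map πC) := by
        rintro ⟨_, ⟨x, hx, rfl⟩⟩
        obtain ⟨k, hk⟩ := hpow x hx
        refine ⟨k, Subtype.ext ?_⟩
        show πC x ^ (p ^ k) = 1
        rw [← map_pow, hπCker, hCdef]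
        exact hk
      rw [hOD, Subgroup.mem_comap]
      exact le_pCore p hOmn hOmp (Subgroup.mem_map_of_mem πC hbO)

theorem kinf_normal_of_qstable {p : ℕ} [hp : Fact p.Prime] {X : Type u} [Group X] [Finite X]
    (S : Sylow p X)
    (hC : Subgroup.centralizer ((pCore p X : Subgroup X) : Set X) ≤ pCore p X)
    (hQ : ∀ (Y : Type u) [Group Y] [Finite Y], IsSection X Y → QStable p Y) :
    (inducedFunctor kInfLower (S : Subgroup X)).Normal ∧
      (inducedFunctor kInfUpper (S : Subgroup X)).Normal := by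
  by_contra hcon
  have hK : ¬ (inducedFunctor kInfLower (S : Subgroup X)).Normal ∨
      ¬ (inducedFunctor kInfUpper (S : Subgroup X)).Normal := not_and_or.mp hcon
  have hTp : IsPGroup p (pCore p X) := pCore_isPGroup p
  have hnilT : Group.IsNilpotent ↥(pCore p X) := hTp.isNilpotent
  obtain ⟨D, A, hDn, hAn, hDA, hAT, hDD, hAD, hATD, hCA⟩ := exists_critical_pair (pCore p X)
  have hTS : pCore p X ≤ (S : Subgroup X) := hTp.le_sylow_of_normal S
  have hAS : A ≤ (S : Subgroup X) := hAT.trans hTS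
  have hDS : D ≤ (S : Subgroup X) := hDA.trans hAS
  have hDc : D ≤ Subgroup.centralizer (D : Set X) :=
    Subgroup.commutator_eq_bot_iff_le_centralizer.mp hDD
  have hSD : (S : Subgroup X) ≤ Subgroup.normalizer (D : Set X) := le_normalizer_of_normal' D _
  have hDAbot : ⁅D, A⁆ = ⊥ := by rw [Subgroup.commutator_comm]; exact hAD
  have hDcA : D ≤ Subgroup.centralizer (A : Set X) :=
    Subgroup.commutator_eq_bot_iff_le_centralizer.mp hDAbot
  have hZA : A ⊓ Subgroup.centralizer (A : Set X) = D :=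
    le_antisymm ((le_inf (inf_le_left.trans hAT) inf_le_right).trans hCA) (le_inf hDA hDcA)
  have hAAD : ⁅A, A⁆ ≤ D := (Subgroup.commutator_mono le_rfl hAT).trans hATD
  have hAcl : A ∈ classTwoSubgroups X := by
    show ⁅A, A⁆ ≤ Subgroup.centralizer (A : Set X)
    exact hAAD.trans hDcA
  have ser : ∀ (U : Subgroup X) [U.Normal], U ≤ A → ∀ g : X,
      ⁅⁅U, Subgroup.zpowers g⁆, Subgroup.zpowers g⁆ = ⊥ →
      ⁅⁅A, Subgroup.zpowers g⁆, Subgroup.zpowers g⁆ ≤ U → g ∈ pCore p X :=
    fun U _ hUA g h1 h2 => stable_series hC hQ D A hDA hAT hATD hCA U hUA g h1 h2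
  have serB : ∀ (U : Subgroup X) [U.Normal], U ≤ A → ∀ B : Subgroup X,
      ⁅⁅U, B⁆, B⁆ = ⊥ → ⁅⁅A, B⁆, B⁆ ≤ U → B ≤ pCore p X := by
    intro U _ hUA B h1 h2 g hg
    have hz : Subgroup.zpowers g ≤ B := by rw [Subgroup.zpowers_le]; exact hg
    exact ser U hUA g (comm_eq_bot_of_le (Subgroup.commutator_mono le_rfl hz) hz h1)
      ((Subgroup.commutator_mono (Subgroup.commutator_mono le_rfl hz) hz).trans h2)
  rcases kinf_dichotomy S hK with ⟨B, hBS, hBT, hB⟩ | ⟨n, B, hBS, hBT, hB, hn⟩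
  · -- case (α)
    have hZB : ⁅B ⊓ Subgroup.centralizer (B : Set X), B⁆ = ⊥ :=
      Subgroup.commutator_eq_bot_iff_le_centralizer.mpr inf_le_right
    have hquad : ∀ E : Subgroup X, E ≤ relEven (S : Subgroup X) 0 → ⁅⁅E, B⁆, B⁆ = ⊥ := by
      intro E hE
      refine comm_eq_bot_of_le ?_ le_rfl hZB
      rw [Subgroup.commutator_comm]
      exact (Subgroup.commutator_mono le_rfl hE).trans hB.2
    by_cases hAL : A ∈ kLowerStarFamily (relOdd (S : Subgroup X) 0)
    · have h1 : A ≤ relEven (S : Subgroup X) 0 := by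
        unfold relEven
        exact le_sSup ⟨hAS, hAL⟩
      exact hBT (serB A le_rfl B (hquad A h1) (by rw [hquad A h1]; exact bot_le))
    · have hSA : relOdd (S : Subgroup X) 0 ≤ Subgroup.normalizer (A : Set X) :=
        le_normalizer_of_normal' A _
      have hex : ∃ A₁ ∈ classTwoSubgroups X, A₁ ≤ relOdd (S : Subgroup X) 0 ∧
          A ≤ Subgroup.normalizer (A₁ : Set X) ∧ ⁅A, ⁅A₁, A₁⁆⁆ = ⊥ ∧
          ⁅⁅A ⊓ Subgroup.centralizer (A : Set X), A₁⁆, A₁⁆ = ⊥ ∧
          ¬ ⁅A, A₁⁆ ≤ A ⊓ Subgroup.centralizer (A : Set X) := by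
        by_contra hcon2
        apply hAL
        refine ⟨hAcl, hSA, fun A₁ h1 h2 h3 h4 h5 => ?_⟩
        by_contra h6
        exact hcon2 ⟨A₁, h1, h2, h3, h4, h5, h6⟩
      obtain ⟨A₁, -, h2, h3, h4, h5, h6⟩ := hex
      rw [hZA] at h5 h6
      have hA1T : ¬ A₁ ≤ pCore p X := fun hle =>
        h6 ((Subgroup.commutator_mono le_rfl hle).trans hATD)
      have h7 : ⁅A, A₁⁆ ≤ A₁ := Subgroup.le_normalizer_iff_commutator_le_right.mp h3
      have h8 : ⁅A, A₁⁆ ≤ A := Subgroup.commutator_le_left A A₁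
      have h9 : ⁅A₁, A₁⁆ ≤ Subgroup.centralizer (A : Set X) := by
        refine Subgroup.commutator_eq_bot_iff_le_centralizer.mp ?_
        rw [Subgroup.commutator_comm]
        exact h4
      have h10 : ⁅⁅A, A₁⁆, A₁⁆ ≤ D := by
        refine (le_inf ?_ ?_).trans hCA
        · exact ((Subgroup.commutator_mono h8 le_rfl).trans h8).trans hAT
        · exact (Subgroup.commutator_mono h7 le_rfl).trans h9
      exact hA1T (serB D hDA A₁ h5 h10)
  · -- case (β)
    obtain ⟨ZB, hZBdef⟩ : ∃ ZB : Subgroup X, ZB = B ⊓ Subgroup.centralizer (B : Set X) := ⟨_, rfl⟩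
    have hBL := hB.2.2
    rw [← hZBdef] at hBL
    have hZBle : ZB ≤ B := by rw [hZBdef]; exact inf_le_left
    have hZBB : ⁅ZB, B⁆ = ⊥ := by
      rw [hZBdef]
      exact Subgroup.commutator_eq_bot_iff_le_centralizer.mpr inf_le_right
    have hBZB : ⁅B, ZB⁆ = ⊥ := by rw [Subgroup.commutator_comm]; exact hZBB
    have hBp : IsPGroup p B := S.isPGroup'.to_le hBS
    have hArel : A ≤ relOdd (S : Subgroup X) n := by
      cases n with
      | zero => rw [relOdd_zero]; exact hAS
      | succ k =>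
        rcases hn with hn | hn
        · omega
        · rw [relOdd_succ]
          refine le_sSup ⟨hAS, hAcl, ?_⟩
          rw [hZA]
          have h1 : relEven (S : Subgroup X) k ≤ pCore p X := by simpa using hn.2
          exact (Subgroup.commutator_mono le_rfl h1).trans hATD
    have hAB : ⁅A, B⁆ ≤ B :=
      Subgroup.le_normalizer_iff_commutator_le_right.mp (hArel.trans hB.2.1)
    -- Step 1: the centre of `B` lies in `T`
    have hZT : ZB ≤ pCore p X := by
      refine serB A le_rfl ZB ?_ (by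
        rw [comm_eq_bot_of_le ((Subgroup.commutator_mono le_rfl hZBle).trans hAB) le_rfl hBZB]
        exact bot_le)
      exact comm_eq_bot_of_le ((Subgroup.commutator_mono le_rfl hZBle).trans hAB) le_rfl hBZB
    -- Step 2: the defining property of the lower star family, inside `A`
    have hL : ∀ A₁ : Subgroup X, A₁ ≤ A → B ≤ Subgroup.normalizer (A₁ : Set X) →
        ⁅B, ⁅A₁, A₁⁆⁆ = ⊥ → ⁅B, A₁⁆ ≤ ZB := by
      intro A₁ hA₁ hBN h3
      refine hBL A₁ ?_ (hA₁.trans hArel) hBN h3 ?_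
      · show ⁅A₁, A₁⁆ ≤ Subgroup.centralizer (A₁ : Set X)
        exact ((Subgroup.commutator_mono hA₁ hA₁).trans hAcl).trans (Subgroup.centralizer_le hA₁)
      · refine comm_eq_bot_of_le ?_ hA₁ hDAbot
        refine (Subgroup.commutator_mono hZT hA₁).trans ?_
        rw [Subgroup.commutator_comm]
        exact hATD
    -- Step 3: `B` is quadratic on `D`
    have hBD : ⁅B, D⁆ ≤ ZB := hL D hDA (le_normalizer_of_normal' D B) (by
      rw [hDD, Subgroup.commutator_comm]
      exact Subgroup.commutator_bot_left _)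
    have hDq : ⁅⁅D, B⁆, B⁆ = ⊥ := by
      refine comm_eq_bot_of_le ?_ le_rfl hZBB
      rw [Subgroup.commutator_comm]
      exact hBD
    -- Step 4: the subgroup `Ũ`
    obtain ⟨Y, hY⟩ : ∃ Y : Subgroup X, Y = ⁅A, A⁆ ⊓ Subgroup.centralizer (B : Set X) := ⟨_, rfl⟩
    have hYAA : Y ≤ ⁅A, A⁆ := by rw [hY]; exact inf_le_left
    have hYB : Y ≤ Subgroup.centralizer (B : Set X) := by rw [hY]; exact inf_le_right
    have hAYbot : ⁅A, Y⁆ = ⊥ := by
      rw [Subgroup.commutator_comm]
      exact Subgroup.commutator_eq_bot_iff_le_centralizer.mpr (hYAA.trans hAcl)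
    have hAY : A ≤ Subgroup.normalizer (Y : Set X) := le_normalizer_of_comm_eq_bot hAYbot
    have hBY : B ≤ Subgroup.normalizer (Y : Set X) := by
      refine le_normalizer_of_comm_eq_bot ?_
      rw [Subgroup.commutator_comm]
      exact Subgroup.commutator_eq_bot_iff_le_centralizer.mpr hYB
    obtain ⟨Ut, hUt⟩ : ∃ Ut : Subgroup X,
        Ut = sSup {K : Subgroup X | K ≤ A ∧ ⁅K, A⁆ ≤ Y} := ⟨_, rfl⟩
    have hUmem : Ut ∈ {K : Subgroup X | K ≤ A ∧ ⁅K, A⁆ ≤ Y} := by
      rw [hUt]
      refine sSup_mem_of_sup_mem _ ⟨bot_le, ?_⟩ ?_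
      · rw [Subgroup.commutator_bot_left]; exact bot_le
      · rintro K₁ ⟨h1, h1'⟩ K₂ ⟨h2, h2'⟩
        exact ⟨sup_le h1 h2, commutator_sup_le_of_normalizer ((sup_le h1 h2).trans hAY) h1' h2'⟩
    have hUA : Ut ≤ A := hUmem.1
    have hUY : ⁅Ut, A⁆ ≤ Y := hUmem.2
    have hle : ∀ K : Subgroup X, K ≤ A → ⁅K, A⁆ ≤ Y → K ≤ Ut := fun K h1 h2 => by
      rw [hUt]; exact le_sSup ⟨h1, h2⟩
    have hDU : D ≤ Ut := hle D hDA (by rw [hDAbot]; exact bot_le)
    have hAU : A ≤ Subgroup.normalizer (Ut : Set X) :=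
      Subgroup.le_normalizer_iff_commutator_le_left.mpr (((hUY.trans hYAA).trans hAAD).trans hDU)
    have hNY : Subgroup.normalizer (Y : Set X) ≤ Subgroup.normalizer (Ut : Set X) := by
      have hmap : ∀ h ∈ Subgroup.normalizer (Y : Set X),
          Ut.map (MulAut.conj h).toMonoidHom ≤ Ut := by
        intro h hh
        apply hle
        · rintro _ ⟨u, hu, rfl⟩
          exact hAn.conj_mem u (hUA hu) h
        · have e : A.map (MulAut.conj h).toMonoidHom = A :=
            map_conj_eq_self_of_mem_normalizer (le_normalizer_of_normal' A ⊤ (Subgroup.mem_top h))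
          have e2 : ⁅Ut.map (MulAut.conj h).toMonoidHom, A⁆ =
              (⁅Ut, A⁆).map (MulAut.conj h).toMonoidHom := by
            rw [Subgroup.map_commutator, e]
          rw [e2]
          exact (Subgroup.map_mono hUY).trans (map_conj_eq_self_of_mem_normalizer hh).le
      intro h hh
      apply mem_normalizer_of_map_conj_eq
      refine le_antisymm (hmap h hh) ?_
      have h1 := Subgroup.map_mono (f := (MulAut.conj h).toMonoidHom) (hmap h⁻¹ (inv_mem hh))
      have h2 := map_conj_inv_map_conj Ut h⁻¹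
      rw [inv_inv] at h2
      rw [h2] at h1
      exact h1
    have hBU : B ≤ Subgroup.normalizer (Ut : Set X) := hBY.trans hNY
    have hU3 : ⁅B, ⁅Ut, Ut⁆⁆ = ⊥ := by
      rw [Subgroup.commutator_comm]
      exact Subgroup.commutator_eq_bot_iff_le_centralizer.mpr
        (((Subgroup.commutator_mono le_rfl hUA).trans hUY).trans hYB)
    have hBUq : ⁅B, Ut⁆ ≤ ZB := hL Ut hUA hBU hU3
    have hUq : ⁅⁅Ut, B⁆, B⁆ = ⊥ := by
      refine comm_eq_bot_of_le ?_ le_rfl hZBB
      rw [Subgroup.commutator_comm]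
      exact hBUq
    have hABB : ⁅⁅A, B⁆, B⁆ ≤ Ut := by
      have hCA' : ⁅⁅A, B⁆, B⁆ ≤ A :=
        (Subgroup.commutator_mono (Subgroup.commutator_le_left A B) le_rfl).trans
          (Subgroup.commutator_le_left A B)
      have hCcent : ⁅⁅A, B⁆, B⁆ ≤ Subgroup.centralizer (B : Set X) :=
        (Subgroup.commutator_mono hAB le_rfl).trans hB.1
      have hBCbot : ⁅B, ⁅⁅A, B⁆, B⁆⁆ = ⊥ := by
        rw [Subgroup.commutator_comm]
        exact Subgroup.commutator_eq_bot_iff_le_centralizer.mpr hCcent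
      refine hle _ hCA' ?_
      rw [hY]
      refine le_inf (Subgroup.commutator_mono hCA' le_rfl) ?_
      refine Subgroup.commutator_eq_bot_iff_le_centralizer.mp ?_
      refine ts_step_bot (X := B) (Y := ⁅⁅A, B⁆, B⁆) (Z := A) ?_ ?_
      · refine comm_eq_bot_of_le ?_ le_rfl hBCbot
        rw [Subgroup.commutator_comm]
        exact hAB
      · rw [hBCbot]
        exact Subgroup.commutator_bot_left _
    -- Step 5: every element of `B` lies in a normal `p`-subgroup of `N(Ũ)`
    have hOb : ∀ b ∈ B, ∃ O : Subgroup X, b ∈ O ∧ O ≤ Subgroup.normalizer (Ut : Set X) ∧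
        Subgroup.normalizer (Ut : Set X) ≤ Subgroup.normalizer (O : Set X) ∧ IsPGroup p O := by
      intro b hb
      have hz : Subgroup.zpowers b ≤ B := by rw [Subgroup.zpowers_le]; exact hb
      exact stable_core hC hQ D A hDA hAT hATD hCA Ut hUA hAU b (hBU hb)
        (comm_eq_bot_of_le (Subgroup.commutator_mono le_rfl hz) hz hUq)
        ((Subgroup.commutator_mono (Subgroup.commutator_mono le_rfl hz) hz).trans hABB)
    -- Step 6: the endgame
    have hCU : Subgroup.centralizer (D : Set X) ≤ Subgroup.normalizer (Ut : Set X) :=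
      ((Subgroup.centralizer_le (hYAA.trans hAAD)).trans
        (Subgroup.centralizer_le_normalizer _)).trans hNY
    have hCDn : (Subgroup.centralizer (D : Set X)).Normal := Subgroup.normal_centralizer
    have hstar : ∀ n ∈ Subgroup.centralizer (D : Set X), ∀ b ∈ B,
        n * b * n⁻¹ * b⁻¹ ∈ pCore p X := by
      intro n hn b hb
      obtain ⟨O, hbO, -, hHO, hOp⟩ := hOb b hb
      have hnO : n ∈ Subgroup.normalizer (O : Set X) := hHO (hCU hn)
      have h1 : n * b * n⁻¹ * b⁻¹ ∈ O :=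
        mul_mem ((Subgroup.mem_normalizer_iff.mp hnO b).mp hbO) (inv_mem hbO)
      have h2 : n * b * n⁻¹ * b⁻¹ ∈ Subgroup.centralizer (D : Set X) := by
        have h3 : b * n⁻¹ * b⁻¹ ∈ Subgroup.centralizer (D : Set X) :=
          hCDn.conj_mem _ (inv_mem hn) b
        have h4 := mul_mem hn h3
        have e : n * (b * n⁻¹ * b⁻¹) = n * b * n⁻¹ * b⁻¹ := by group
        rwa [e] at h4
      refine le_pCore_of_normal_in_normal (Subgroup.centralizer (D : Set X))
        (Subgroup.centralizer (D : Set X) ⊓ O) inf_le_left ?_ (hOp.to_le inf_le_right)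
        (Subgroup.mem_inf.mpr ⟨h2, h1⟩)
      intro c hc
      have n1 : c ∈ Subgroup.normalizer ((Subgroup.centralizer (D : Set X) : Subgroup X) : Set X) :=
        le_normalizer_of_normal' _ ⊤ (Subgroup.mem_top c)
      have n2 := hHO (hCU hc)
      rw [Subgroup.mem_normalizer_iff] at n1 n2 ⊢
      intro x
      rw [Subgroup.mem_inf, Subgroup.mem_inf, n1 x, n2 x]
    exact hBT (stable_endgame (hQ X (isSection_self X)) D (hTp.to_le (hDA.trans hAT)) B hBp hDq
      hstar)

end Cfsg.Agent.Lib.Helper14
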