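import Cfsg.Agent.Lib.Helper14.KInfDich
import Cfsg.Agent.Lib.Helper14.SecFam
import Cfsg.Prelude.Def_Amalgam

set_option autoImplicit false

/-!
The quadratic element for the K-infinity subgroups, stated for the subgroups `H` of a finite
group `G`.
-/

namespace Cfsg.Agent.Lib.Helper14

open Cfsg

universe u

variable {G : Type u} [Group G]

theorem isConjugacyFunctor_inducedFunctor [Finite G] {p : ℕ}
    {W : ∀ (Q : Type u) [Group Q], Subgroup Q} (hW : IsCharPFunctor.{u} p W) :
    IsConjugacyFunctor p (inducedFunctor (G := G) W) := fun P hP =>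
  ⟨inducedFunctor_le P, inducedFunctor_ne_bot hW P hP,
    fun g => inducedFunctor_map_conj hW g P hP⟩

theorem center_le_inducedFunctor_kInf [Finite G] {p : ℕ} [Fact p.Prime] (P : Subgroup G)
    (hP : IsPGroup p ↥P) :
    P ⊓ Subgroup.centralizer (P : Set G) ≤ inducedFunctor kInfLower P ∧
    P ⊓ Subgroup.centralizer (P : Set G) ≤ inducedFunctor kInfUpper P := by
  have key : ∀ x ∈ P ⊓ Subgroup.centralizer (P : Set G), ∃ y : ↥P,
      y ∈ Subgroup.center ↥P ∧ P.subtype y = x := by
    intro x hx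
    obtain ⟨hxP, hxC⟩ := Subgroup.mem_inf.mp hx
    refine ⟨⟨x, hxP⟩, ?_, rfl⟩
    rw [Subgroup.mem_center_iff]
    intro y
    apply Subtype.ext
    exact Subgroup.mem_centralizer_iff.mp hxC y y.2
  obtain ⟨h1, h2⟩ := center_le_kInf ↥P hP
  constructor
  · intro x hx
    obtain ⟨y, hy, rfl⟩ := key x hx
    exact Subgroup.mem_map_of_mem _ (h1 hy)
  · intro x hx
    obtain ⟨y, hy, rfl⟩ := key x hx
    exact Subgroup.mem_map_of_mem _ (h2 hy)

/-- Normality in `↥H` of the value of an induced functor, read in `G`. -/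
theorem le_normalizer_of_inducedFunctor_normal [Finite G] {p : ℕ}
    {W : ∀ (Q : Type u) [Group Q], Subgroup Q} (hW : IsCharPFunctor.{u} p W)
    (H T : Subgroup G) (hTH : T ≤ H) (hTp : IsPGroup p ↥T)
    (hn : (inducedFunctor W (T.subgroupOf H)).Normal) :
    H ≤ Subgroup.normalizer ((inducedFunctor W T : Subgroup G) : Set G) := by
  have hT'p : IsPGroup p ↥(T.subgroupOf H) := by
    have e := (Subgroup.subgroupOfEquivOfLe hTH)
    exact hTp.of_equiv e.symm
  have h1 : inducedFunctor W T = (inducedFunctor W (T.subgroupOf H)).map H.subtype := by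
    rw [← inducedFunctor_map hW H.subtype H.subtype_injective (T.subgroupOf H) hT'p,
      Subgroup.map_subgroupOf_eq_of_le hTH]
  intro h hh
  apply mem_normalizer_of_map_conj_eq
  rw [h1, Subgroup.map_map]
  have hcomp : (MulAut.conj h).toMonoidHom.comp H.subtype =
      H.subtype.comp (MulAut.conj (⟨h, hh⟩ : ↥H)).toMonoidHom := by
    ext x
    simp
  rw [hcomp, ← Subgroup.map_map]
  congr 1
  exact map_conj_eq_self_of_mem_normalizer (by rw [Subgroup.normalizer_eq_top]; trivial)

/-- The quadratic element, for a subgroup `H` of `G` with Sylow `p`-subgroup `T`. -/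
theorem kinf_quadratic_subgroup_form [Finite G] {p : ℕ} [Fact p.Prime]
    (H T : Subgroup G) (hTH : T ≤ H) (hTp : IsPGroup p ↥T) (hidx : ¬ p ∣ T.relIndex H)
    (hWn : ¬ H ≤ Subgroup.normalizer ((inducedFunctor kInfLower T : Subgroup G) : Set G) ∨
      ¬ H ≤ Subgroup.normalizer ((inducedFunctor kInfUpper T : Subgroup G) : Set G)) :
    ∃ g : G, g ∈ T ∧ g ∉ pCoreOf p H ∧
      ⁅⁅pCoreOf p H ⊓ Subgroup.centralizer ((pCoreOf p H : Subgroup G) : Set G),
        Subgroup.zpowers g⁆, Subgroup.zpowers g⁆ = ⊥ := by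
  have hT'p : IsPGroup p ↥(T.subgroupOf H) := by
    have e := (Subgroup.subgroupOfEquivOfLe hTH)
    exact hTp.of_equiv e.symm
  obtain ⟨S', hS'⟩ : ∃ S' : Sylow p ↥H, (S' : Subgroup ↥H) = T.subgroupOf H :=
    ⟨hT'p.toSylow hidx, rfl⟩
  have hK : ¬ (inducedFunctor kInfLower (S' : Subgroup ↥H)).Normal ∨
      ¬ (inducedFunctor kInfUpper (S' : Subgroup ↥H)).Normal := by
    rw [hS']
    rcases hWn with h | h
    · left
      intro hn
      exact h (le_normalizer_of_inducedFunctor_normal (isCharPFunctor_kInfLower.{u} p) H T hTH hTp hn)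
    · right
      intro hn
      exact h (le_normalizer_of_inducedFunctor_normal (isCharPFunctor_kInfUpper.{u} p) H T hTH hTp hn)
  obtain ⟨g', hg'S, hg'T, hquad⟩ := kinf_exists_quadratic_element S' hK
  obtain ⟨E', hE'⟩ : ∃ E' : Subgroup ↥H, E' = pCore p ↥H ⊓
      Subgroup.centralizer ((pCore p ↥H : Subgroup ↥H) : Set ↥H) := ⟨_, rfl⟩
  have hTpc : IsPGroup p (pCore p ↥H) := pCore_isPGroup p
  have hE'S : E' ≤ (S' : Subgroup ↥H) := by
    rw [hE']
    exact inf_le_left.trans (hTpc.le_sylow_of_normal S')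
  have hE'ab : E' ≤ Subgroup.centralizer (E' : Set ↥H) := by
    rw [hE']
    exact inf_le_right.trans (Subgroup.centralizer_le (SetLike.coe_subset_coe.mpr inf_le_left))
  have hE'n : E'.Normal := by
    rw [hE']
    infer_instance
  have hq := hquad E' hE'S hE'ab (by rw [Subgroup.normalizer_eq_top]; exact le_top)
  refine ⟨(g' : G), ?_, ?_, ?_⟩
  · have : g' ∈ T.subgroupOf H := hS' ▸ hg'S
    exact Subgroup.mem_subgroupOf.mp this
  · rintro ⟨y, hy, hyg⟩
    have : y = g' := Subtype.ext hyg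
    exact hg'T (this ▸ hy)
  · have h1 : pCoreOf p H ⊓ Subgroup.centralizer ((pCoreOf p H : Subgroup G) : Set G) =
        E'.map H.subtype := by
      rw [hE', map_subtype_inf_centralizer]
      rfl
    have h2 : Subgroup.zpowers (g' : G) = (Subgroup.zpowers g').map H.subtype := by
      rw [MonoidHom.map_zpowers]
      rfl
    rw [h1, h2, ← Subgroup.map_commutator, ← Subgroup.map_commutator, hq, Subgroup.map_bot]

end Cfsg.Agent.Lib.Helper14
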