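import Cfsg.Agent.Lib.Helper14.PairCtl
import Cfsg.Agent.Lib.Helper14.FamilyTransfer

set_option autoImplicit false

namespace Cfsg.Agent.Lib.Helper14

open Cfsg

universe u

variable {G : Type u} [Group G]

/-- A conjugation-invariant local property of pairs `(T, Q)`, `Q` a Sylow subgroup of `N(T)`,
known at some `Q` for every `T` between the centre of `S` and `S`, holds at `S ⊓ N(T)` for every
fully normalized `T` between the centre of a Sylow subgroup and that Sylow subgroup. -/
theorem loc_at [Finite G] {p : ℕ} [Fact p.Prime] (S : Sylow p G)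
    (L : Subgroup G → Subgroup G → Prop)
    (hL : ∀ T Q, L T Q → Q ≤ Subgroup.normalizer (T : Set G) ∧ IsPGroup p Q ∧
      ¬ p ∣ Q.relIndex (Subgroup.normalizer (T : Set G)))
    (hconj : ∀ (T Q : Subgroup G) (g : G), L T Q →
      L (T.map (MulAut.conj g).toMonoidHom) (Q.map (MulAut.conj g).toMonoidHom))
    (hloc : ∀ T : Subgroup G, (S : Subgroup G) ⊓ Subgroup.centralizer ((S : Subgroup G) : Set G) ≤ T →
      T ≤ (S : Subgroup G) → ∃ Q, L T Q) :
    ∀ T : Subgroup G, CCent (S : Subgroup G) T → T ≤ (S : Subgroup G) →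
      ¬ p ∣ ((S : Subgroup G) ⊓ Subgroup.normalizer (T : Set G)).relIndex
        (Subgroup.normalizer (T : Set G)) →
      L T ((S : Subgroup G) ⊓ Subgroup.normalizer (T : Set G)) := by
  rintro T ⟨g, hg1, hg2⟩ hTS hfn
  have hRp : IsPGroup p ↥((S : Subgroup G) ⊓ Subgroup.normalizer (T : Set G)) :=
    S.isPGroup'.to_le inf_le_left
  have h1 : (S : Subgroup G) ⊓ Subgroup.centralizer ((S : Subgroup G) : Set G) ≤
      T.map (MulAut.conj g⁻¹).toMonoidHom := map_conj_le_iff.mp hg1
  have h2 : T.map (MulAut.conj g⁻¹).toMonoidHom ≤ (S : Subgroup G) := by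
    rw [map_conj_le_iff, inv_inv]; exact hg2
  obtain ⟨Q', hQ'⟩ := hloc _ h1 h2
  have h3 := hconj _ _ g hQ'
  have e : (T.map (MulAut.conj g⁻¹).toMonoidHom).map (MulAut.conj g).toMonoidHom = T := by
    rw [map_conj_map_conj, mul_inv_cancel, map_conj_one]
  rw [e] at h3
  obtain ⟨hQN, hQp, hQidx⟩ := hL _ _ h3
  obtain ⟨n, hnN, hn⟩ := exists_conj_mem_of_relIndex hRp hfn hQp hQN
  have hle : (Q'.map (MulAut.conj g).toMonoidHom).map (MulAut.conj n).toMonoidHom ≤
      (S : Subgroup G) ⊓ Subgroup.normalizer (T : Set G) := by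
    intro z hz
    rw [mem_map_conj_iff] at hz
    have := hn _ hz
    have e : n * (n⁻¹ * z * n) * n⁻¹ = z := by group
    rwa [e] at this
  have hNn : (Subgroup.normalizer (T : Set G)).map (MulAut.conj n).toMonoidHom =
      Subgroup.normalizer (T : Set G) :=
    map_conj_eq_self_of_mem_normalizer (Subgroup.le_normalizer hnN)
  have heq : (Q'.map (MulAut.conj g).toMonoidHom).map (MulAut.conj n).toMonoidHom =
      (S : Subgroup G) ⊓ Subgroup.normalizer (T : Set G) := by
    apply eq_of_le_of_relIndex (p := p) hle inf_le_right hRp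
    have := relIndex_map_conj (Q'.map (MulAut.conj g).toMonoidHom)
      (Subgroup.normalizer (T : Set G)) n
    rw [hNn] at this
    rw [this]; exact hQidx
  have h4 := hconj _ _ n h3
  rw [heq, map_conj_eq_self_of_mem_normalizer hnN] at h4
  exact h4

/-- Local control of transfer in `N(T)` by the pair `(W, V)` with respect to the Sylow subgroup
`Q` of `N(T)`. -/
def LocTr (p : ℕ) (W V : Subgroup G → Subgroup G) (T Q : Subgroup G) : Prop :=
  Q ≤ Subgroup.normalizer (T : Set G) ∧ IsPGroup p Q ∧
  ¬ p ∣ Q.relIndex (Subgroup.normalizer (T : Set G)) ∧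
  Q ⊓ ⁅Subgroup.normalizer (T : Set G), Subgroup.normalizer (T : Set G)⁆ ≤
    (Q ⊓ ⁅Subgroup.normalizer (T : Set G) ⊓ Subgroup.normalizer ((W Q : Subgroup G) : Set G),
          Subgroup.normalizer (T : Set G) ⊓ Subgroup.normalizer ((W Q : Subgroup G) : Set G)⁆) ⊔
    (Q ⊓ ⁅Subgroup.normalizer (T : Set G) ⊓ Subgroup.centralizer ((V Q : Subgroup G) : Set G),
          Subgroup.normalizer (T : Set G) ⊓ Subgroup.centralizer ((V Q : Subgroup G) : Set G)⁆)

theorem LocTr.conj {p : ℕ} {W V : Subgroup G → Subgroup G} (hW : IsConjugacyFunctor p W)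
    (hV : IsConjugacyFunctor p V) {T Q : Subgroup G} (h : LocTr p W V T Q) (g : G) :
    LocTr p W V (T.map (MulAut.conj g).toMonoidHom) (Q.map (MulAut.conj g).toMonoidHom) := by
  obtain ⟨hQN, hQp, hidx, hctl⟩ := h
  refine ⟨?_, hQp.map _, ?_, ?_⟩
  · rw [normalizer_map_conj]; exact Subgroup.map_mono hQN
  · rw [normalizer_map_conj, relIndex_map_conj]; exact hidx
  · have e1 := normalizer_map_conj T g
    have e2 := (hW Q hQp).2.2 g
    have e3 := (hV Q hQp).2.2 g
    have e4 := normalizer_map_conj (W Q) g
    have e5 := centralizer_map_conj (V Q) g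
    rw [e1, e2, e3, e4, e5]
    have e6 : ∀ A B : Subgroup G, A.map (MulAut.conj g).toMonoidHom ⊓
        B.map (MulAut.conj g).toMonoidHom = (A ⊓ B).map (MulAut.conj g).toMonoidHom :=
      fun A B => (map_conj_inf A B g).symm
    have e7 : ∀ A B : Subgroup G, ⁅A.map (MulAut.conj g).toMonoidHom,
        B.map (MulAut.conj g).toMonoidHom⁆ = (⁅A, B⁆ : Subgroup G).map (MulAut.conj g).toMonoidHom :=
      fun A B => (Subgroup.map_commutator A B _).symm
    have e8 : ∀ A B : Subgroup G, A.map (MulAut.conj g).toMonoidHom ⊔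
        B.map (MulAut.conj g).toMonoidHom = (A ⊔ B).map (MulAut.conj g).toMonoidHom :=
      fun A B => (Subgroup.map_sup A B _).symm
    simp only [e6, e7, e8]
    exact Subgroup.map_mono hctl

open scoped commutatorElement in
/-- For a fully normalized subgroup `T` over the centre of a Sylow subgroup, the part of
`N_S(T)` inside the derived subgroup of `N_G(T)` lies in `D`, once all conjugations of larger
subgroups are focal. -/
theorem pair_focalN [Finite G] {p : ℕ} [Fact p.Prime] (S : Sylow p G)
    (hSne : (S : Subgroup G) ≠ ⊥)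
    {W V : Subgroup G → Subgroup G} (hW : IsConjugacyFunctor p W)
    (hWZ : ∀ H : Subgroup G, IsPGroup p H → H ⊓ Subgroup.centralizer (H : Set G) ≤ W H)
    (hVmono : ∀ H K : Subgroup G, IsPGroup p H → IsPGroup p K → H ≠ ⊥ → K ≠ ⊥ →
      H ⊓ Subgroup.centralizer (H : Set G) ≤ K ⊓ Subgroup.centralizer (K : Set G) → V H ≤ V K)
    (hloc : ∀ T : Subgroup G, CCent (S : Subgroup G) T → T ≤ (S : Subgroup G) →
      ¬ p ∣ ((S : Subgroup G) ⊓ Subgroup.normalizer (T : Set G)).relIndex
        (Subgroup.normalizer (T : Set G)) →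
      LocTr p W V T ((S : Subgroup G) ⊓ Subgroup.normalizer (T : Set G)))
    (D : Subgroup G)
    (hD1 : (S : Subgroup G) ⊓
      ⁅Subgroup.normalizer ((W (S : Subgroup G) : Subgroup G) : Set G),
        Subgroup.normalizer ((W (S : Subgroup G) : Subgroup G) : Set G)⁆ ≤ D)
    (hD2 : (S : Subgroup G) ⊓
      ⁅Subgroup.centralizer ((V (S : Subgroup G) : Subgroup G) : Set G),
        Subgroup.centralizer ((V (S : Subgroup G) : Subgroup G) : Set G)⁆ ≤ D)
    (k₀ : ℕ)
    (hbig : ∀ P' : Subgroup G, P' ≤ (S : Subgroup G) → k₀ < Nat.card P' → ∀ g' : G,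
      P'.map (MulAut.conj g').toMonoidHom ≤ (S : Subgroup G) → Foc D (P' : Set G) g') :
    ∀ (d : ℕ) (T : Subgroup G), T ≤ (S : Subgroup G) → CCent (S : Subgroup G) T →
      ¬ p ∣ ((S : Subgroup G) ⊓ Subgroup.normalizer (T : Set G)).relIndex
        (Subgroup.normalizer (T : Set G)) →
      k₀ ≤ Nat.card ↥((S : Subgroup G) ⊓ Subgroup.normalizer (T : Set G)) →
      Nat.card (S : Subgroup G) -
        Nat.card ↥((S : Subgroup G) ⊓ Subgroup.normalizer (T : Set G)) = d →
      ((S : Subgroup G) ⊓ Subgroup.normalizer (T : Set G)) ⊓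
        ⁅Subgroup.normalizer (T : Set G), Subgroup.normalizer (T : Set G)⁆ ≤ D := by
  intro d
  induction d using Nat.strong_induction_on with
  | _ d ih =>
    intro T hTS hCC hfn hk hd
    have hSp := S.isPGroup'
    have hRS : (S : Subgroup G) ⊓ Subgroup.normalizer (T : Set G) ≤ (S : Subgroup G) := inf_le_left
    have hRp : IsPGroup p ↥((S : Subgroup G) ⊓ Subgroup.normalizer (T : Set G)) := hSp.to_le hRS
    have hctl := hloc T hCC hTS hfn
    generalize hRdef : (S : Subgroup G) ⊓ Subgroup.normalizer (T : Set G) = R at *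
    have hZR : (S : Subgroup G) ⊓ Subgroup.centralizer ((S : Subgroup G) : Set G) ≤
        R ⊓ Subgroup.centralizer (R : Set G) := by
      intro x hx
      obtain ⟨hxS, hxC⟩ := Subgroup.mem_inf.mp hx
      refine Subgroup.mem_inf.mpr ⟨?_, ?_⟩
      · rw [← hRdef]
        exact Subgroup.mem_inf.mpr ⟨hxS, Subgroup.centralizer_le_normalizer _
          (Subgroup.centralizer_le (SetLike.coe_subset_coe.mpr hTS) hxC)⟩
      · exact Subgroup.centralizer_le (SetLike.coe_subset_coe.mpr hRS) hxC
    have hRne : R ≠ ⊥ := by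
      intro hbot
      have hT : T = ⊥ := by
        rw [eq_bot_iff, ← hbot, ← hRdef]; exact le_inf hTS Subgroup.le_normalizer
      apply hSne
      rw [eq_bot_iff, ← hbot, ← hRdef]
      intro x hx
      refine Subgroup.mem_inf.mpr ⟨hx, ?_⟩
      rw [hT, Subgroup.mem_normalizer_iff]
      intro h
      simp [Subgroup.mem_bot]
    have hVSR : V (S : Subgroup G) ≤ V R := hVmono _ R hSp hRp hSne hRne hZR
    obtain ⟨-, -, -, h1⟩ := hctl
    refine h1.trans (sup_le ?_ ?_)
    · have h2 : R ⊓ ⁅Subgroup.normalizer (T : Set G) ⊓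
            Subgroup.normalizer ((W R : Subgroup G) : Set G),
          Subgroup.normalizer (T : Set G) ⊓
            Subgroup.normalizer ((W R : Subgroup G) : Set G)⁆ ≤
          R ⊓ ⁅Subgroup.normalizer ((W R : Subgroup G) : Set G),
            Subgroup.normalizer ((W R : Subgroup G) : Set G)⁆ :=
        inf_le_inf_left _ (Subgroup.commutator_mono inf_le_right inf_le_right)
      refine h2.trans ?_
      by_cases hRS' : R = (S : Subgroup G)
      · rw [hRS']; exact hD1
      · have hVR : W R ≤ R := (hW R hRp).1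
        have hVS : W R ≤ (S : Subgroup G) := hVR.trans hRS
        have hRR1 : (S : Subgroup G) ⊓ Subgroup.normalizer (R : Set G) ≤
            (S : Subgroup G) ⊓ Subgroup.normalizer ((W R : Subgroup G) : Set G) :=
          inf_le_inf_left _ (normalizer_le_normalizer_functor hW hRp)
        have hRle : R ≤ (S : Subgroup G) ⊓ Subgroup.normalizer ((W R : Subgroup G) : Set G) :=
          le_trans (le_inf hRS Subgroup.le_normalizer) hRR1
        have hlt : Nat.card R <
            Nat.card ↥((S : Subgroup G) ⊓ Subgroup.normalizer ((W R : Subgroup G) : Set G)) :=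
          lt_of_lt_of_le (card_lt_card_normalizer hSp hRS hRS') (Subgroup.card_le_of_le hRR1)
        obtain ⟨h', hU'S, hU'fn⟩ := exists_fullyNormalized_conj S hVS
        obtain ⟨a, ha, haN⟩ := exists_conj_normalizer_le S hU'fn
          (rfl : (W R).map (MulAut.conj h').toMonoidHom = (W R).map (MulAut.conj h').toMonoidHom)
        generalize hU' : (W R).map (MulAut.conj h').toMonoidHom = U' at hU'S hU'fn ha haN
        have hcard : Nat.card ↥((S : Subgroup G) ⊓
            Subgroup.normalizer ((W R : Subgroup G) : Set G)) ≤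
            Nat.card ↥((S : Subgroup G) ⊓ Subgroup.normalizer ((U' : Subgroup G) : Set G)) := by
          rw [← card_map_conj ((S : Subgroup G) ⊓
            Subgroup.normalizer ((W R : Subgroup G) : Set G)) a]
          exact Subgroup.card_le_of_le haN
        have hle1 : Nat.card ↥((S : Subgroup G) ⊓
            Subgroup.normalizer ((U' : Subgroup G) : Set G)) ≤
            Nat.card (S : Subgroup G) := Subgroup.card_le_of_le inf_le_left
        have hCC' : CCent (S : Subgroup G) U' := by
          refine ⟨a, ?_, ?_⟩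
          · rw [← ha]; exact Subgroup.map_mono (hZR.trans (hWZ R hRp))
          · rw [← ha]; exact Subgroup.map_mono hVS
        have hRa : Foc D
            (((S : Subgroup G) ⊓ Subgroup.normalizer ((W R : Subgroup G) : Set G) :
              Subgroup G) : Set G) a :=
          hbig _ inf_le_left (by omega) a (haN.trans inf_le_left)
        have hR3 : Nat.card R < Nat.card (S : Subgroup G) := by
          by_contra hcon; push Not at hcon
          exact hRS' (Subgroup.eq_of_le_of_card_ge hRS hcon)
        have hih := ih _ (by omega) U' hU'S hCC' hU'fn (by omega) rfl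
        intro z hz
        obtain ⟨hzR, hzC⟩ := Subgroup.mem_inf.mp hz
        have hz1 : z * (a * z * a⁻¹)⁻¹ ∈ D := hRa z (hRle hzR)
        have hz2 : a * z * a⁻¹ ∈ D := by
          apply hih
          refine Subgroup.mem_inf.mpr ⟨haN (conj_mem_map_conj (hRle hzR)), ?_⟩
          have := conj_mem_map_conj (g := a) hzC
          rwa [Subgroup.map_commutator, ← normalizer_map_conj, ha] at this
        have e : z = (z * (a * z * a⁻¹)⁻¹) * (a * z * a⁻¹) := by group
        rw [e]; exact mul_mem hz1 hz2
    · refine le_trans ?_ hD2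
      exact inf_le_inf hRS (Subgroup.commutator_mono
        (inf_le_right.trans (Subgroup.centralizer_le (SetLike.coe_subset_coe.mpr hVSR)))
        (inf_le_right.trans (Subgroup.centralizer_le (SetLike.coe_subset_coe.mpr hVSR))))

open scoped commutatorElement in
/-- Local-to-global control of transfer by a pair of conjugacy functors: all conjugations
between subgroups of `S` are focal with respect to `D`. -/
theorem pair_focal_all [Finite G] {p : ℕ} [Fact p.Prime] (S : Sylow p G)
    (hSne : (S : Subgroup G) ≠ ⊥)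
    {W V : Subgroup G → Subgroup G} (hW : IsConjugacyFunctor p W)
    (hWZ : ∀ H : Subgroup G, IsPGroup p H → H ⊓ Subgroup.centralizer (H : Set G) ≤ W H)
    (hVmono : ∀ H K : Subgroup G, IsPGroup p H → IsPGroup p K → H ≠ ⊥ → K ≠ ⊥ →
      H ⊓ Subgroup.centralizer (H : Set G) ≤ K ⊓ Subgroup.centralizer (K : Set G) → V H ≤ V K)
    (hloc : ∀ T : Subgroup G, CCent (S : Subgroup G) T → T ≤ (S : Subgroup G) →
      ¬ p ∣ ((S : Subgroup G) ⊓ Subgroup.normalizer (T : Set G)).relIndex
        (Subgroup.normalizer (T : Set G)) →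
      LocTr p W V T ((S : Subgroup G) ⊓ Subgroup.normalizer (T : Set G)))
    (D : Subgroup G)
    (hD1 : (S : Subgroup G) ⊓
      ⁅Subgroup.normalizer ((W (S : Subgroup G) : Subgroup G) : Set G),
        Subgroup.normalizer ((W (S : Subgroup G) : Subgroup G) : Set G)⁆ ≤ D)
    (hD2 : (S : Subgroup G) ⊓
      ⁅Subgroup.centralizer ((V (S : Subgroup G) : Subgroup G) : Set G),
        Subgroup.centralizer ((V (S : Subgroup G) : Subgroup G) : Set G)⁆ ≤ D) :
    ∀ (m : ℕ) (P : Subgroup G), P ≤ (S : Subgroup G) →
      Nat.card (S : Subgroup G) - Nat.card P = m → ∀ g : G,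
      P.map (MulAut.conj g).toMonoidHom ≤ (S : Subgroup G) → Foc D (P : Set G) g := by
  intro m
  induction m using Nat.strong_induction_on with
  | _ m ih =>
    intro P hPS hm g hPg
    have hSp := S.isPGroup'
    have hcardle : Nat.card P ≤ Nat.card (S : Subgroup G) := Subgroup.card_le_of_le hPS
    have hbig : ∀ P' : Subgroup G, P' ≤ (S : Subgroup G) → Nat.card P < Nat.card P' → ∀ g' : G,
        P'.map (MulAut.conj g').toMonoidHom ≤ (S : Subgroup G) → Foc D (P' : Set G) g' := by
      intro P' hP'S hlt g' hg'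
      have := Subgroup.card_le_of_le hP'S
      exact ih (Nat.card (S : Subgroup G) - Nat.card P') (by omega) P' hP'S rfl g' hg'
    have hNC := pair_focalN S hSne hW hWZ hVmono hloc D hD1 hD2 (Nat.card P) hbig
    -- conjugation by a normalizing element is focal
    have hnorm : ∀ U : Subgroup G, U ≤ (S : Subgroup G) →
        ¬ p ∣ ((S : Subgroup G) ⊓ Subgroup.normalizer ((U : Subgroup G) : Set G)).relIndex
          (Subgroup.normalizer ((U : Subgroup G) : Set G)) →
        Nat.card P ≤ Nat.card U → ∀ c ∈ Subgroup.normalizer ((U : Subgroup G) : Set G),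
        Foc D (U : Set G) c := by
      intro U hUS hUfn hcard c hc
      obtain ⟨k, hkC, y, hy, hcy⟩ := frattini_centralizer hSp hUfn c hc
      obtain ⟨hyU, hyD⟩ := Subgroup.mem_inf.mp hy
      have hFy : Foc D (U : Set G) y := by
        have hyH : y ∈ Subgroup.normalizer
            ((U ⊔ ((S : Subgroup G) ⊓ Subgroup.centralizer (U : Set G)) : Subgroup G) : Set G) := by
          apply mem_normalizer_of_map_conj_eq
          rw [Subgroup.map_sup, map_conj_eq_self_of_mem_normalizer hyU,
            map_conj_eq_self_of_mem_normalizer hyD]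
        have hHS : U ⊔ ((S : Subgroup G) ⊓ Subgroup.centralizer (U : Set G)) ≤ (S : Subgroup G) :=
          sup_le hUS inf_le_left
        by_cases hHU : U ⊔ ((S : Subgroup G) ⊓ Subgroup.centralizer (U : Set G)) = U
        · have hZU : (S : Subgroup G) ⊓ Subgroup.centralizer ((S : Subgroup G) : Set G) ≤ U := by
            rw [← hHU]
            refine le_trans ?_ le_sup_right
            exact inf_le_inf_left _ (Subgroup.centralizer_le (SetLike.coe_subset_coe.mpr hUS))
          have hCC : CCent (S : Subgroup G) U :=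
            ⟨1, by rw [map_conj_one]; exact hZU, by rw [map_conj_one]; exact hUS⟩
          intro u hu
          have hUle : U ≤ (S : Subgroup G) ⊓ Subgroup.normalizer ((U : Subgroup G) : Set G) :=
            le_inf hUS Subgroup.le_normalizer
          apply hNC _ U hUS hCC hUfn (hcard.trans (Subgroup.card_le_of_le hUle)) rfl
          have hyu : y * u * y⁻¹ ∈ U := (Subgroup.mem_normalizer_iff.mp hyU u).mp hu
          refine Subgroup.mem_inf.mpr ⟨hUle (mul_mem hu (inv_mem hyu)), ?_⟩
          have e : u * (y * u * y⁻¹)⁻¹ = ⁅u, y⁆ := by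
            rw [commutatorElement_def]; group
          rw [e]
          exact Subgroup.commutator_mem_commutator (Subgroup.le_normalizer hu) hyU
        · have hlt : Nat.card U <
              Nat.card ↥(U ⊔ ((S : Subgroup G) ⊓ Subgroup.centralizer (U : Set G))) := by
            by_contra hcon; push Not at hcon
            exact hHU (Subgroup.eq_of_le_of_card_ge le_sup_left hcon).symm
          have := hbig _ hHS (lt_of_le_of_lt hcard hlt) y
            (by rw [map_conj_eq_self_of_mem_normalizer hyH]; exact hHS)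
          exact this.mono (SetLike.coe_subset_coe.mpr le_sup_left)
      intro u hu
      have h1 := hFy u hu
      have hyu : y * u * y⁻¹ ∈ U := (Subgroup.mem_normalizer_iff.mp hyU u).mp hu
      have h2 : c * u * c⁻¹ = y * u * y⁻¹ := by
        rw [hcy]
        have h3 := Subgroup.mem_centralizer_iff.mp hkC (y * u * y⁻¹) hyu
        calc k * y * u * (k * y)⁻¹ = k * (y * u * y⁻¹) * k⁻¹ := by group
          _ = (y * u * y⁻¹) * k * k⁻¹ := by rw [h3]
          _ = y * u * y⁻¹ := by group
      rw [h2]; exact h1
    by_cases hPeq : P = (S : Subgroup G)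
    · have hSS : (S : Subgroup G) ⊓ Subgroup.normalizer (((S : Subgroup G) : Subgroup G) : Set G) =
          (S : Subgroup G) := inf_of_le_left Subgroup.le_normalizer
      have hgN : g ∈ Subgroup.normalizer (((S : Subgroup G) : Subgroup G) : Set G) := by
        apply mem_normalizer_of_map_conj_eq
        rw [hPeq] at hPg
        exact Subgroup.eq_of_le_of_card_ge hPg (by rw [card_map_conj])
      have hSfn : ¬ p ∣ ((S : Subgroup G) ⊓
          Subgroup.normalizer (((S : Subgroup G) : Subgroup G) : Set G)).relIndex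
          (Subgroup.normalizer (((S : Subgroup G) : Subgroup G) : Set G)) := by
        rw [hSS]
        exact fun h => S.not_dvd_index
          (dvd_trans h (Subgroup.relIndex_dvd_index_of_le Subgroup.le_normalizer))
      have := hnorm (S : Subgroup G) le_rfl hSfn (by rw [hPeq]) g hgN
      rw [hPeq]; exact this
    · obtain ⟨h₁, hUS, hUfn⟩ := exists_fullyNormalized_conj S hPS
      obtain ⟨a, ha, haN⟩ := exists_conj_normalizer_le S hUfn
        (rfl : P.map (MulAut.conj h₁).toMonoidHom = P.map (MulAut.conj h₁).toMonoidHom)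
      set U := P.map (MulAut.conj h₁).toMonoidHom with hU
      set Q := P.map (MulAut.conj g).toMonoidHom with hQ
      have hQU : Q.map (MulAut.conj (h₁ * g⁻¹)).toMonoidHom = U := by
        rw [hQ, map_conj_map_conj]
        have : h₁ * g⁻¹ * g = h₁ := by group
        rw [this]
      obtain ⟨b, hb, hbN⟩ := exists_conj_normalizer_le S hUfn hQU
      have hcardQ : Nat.card Q = Nat.card P := card_map_conj P g
      have hcardU : Nat.card U = Nat.card P := card_map_conj P h₁
      have hQne : Q ≠ (S : Subgroup G) := by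
        intro hQS
        apply hPeq
        exact Subgroup.eq_of_le_of_card_ge hPS (by rw [← hcardQ, hQS])
      have hPa : Foc D (P : Set G) a :=
        (hbig _ inf_le_left (card_lt_card_normalizer hSp hPS hPeq) a (haN.trans inf_le_left)).mono
          (SetLike.coe_subset_coe.mpr (le_inf hPS Subgroup.le_normalizer))
      have hQb : Foc D (Q : Set G) b :=
        (hbig _ inf_le_left (by rw [← hcardQ]; exact card_lt_card_normalizer hSp hPg hQne) b
          (hbN.trans inf_le_left)).mono
          (SetLike.coe_subset_coe.mpr (le_inf hPg Subgroup.le_normalizer))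
      have hcU : U.map (MulAut.conj (b * g * a⁻¹)).toMonoidHom = U := by
        conv_lhs => rw [← ha]
        rw [map_conj_map_conj]
        have : b * g * a⁻¹ * a = b * g := by group
        rw [this, ← map_conj_map_conj, ← hQ, hb]
      have hcN : b * g * a⁻¹ ∈ Subgroup.normalizer ((U : Subgroup G) : Set G) :=
        mem_normalizer_of_map_conj_eq hcU
      have e1 : conjL a (P : Set G) = (U : Set G) := by rw [conjL_coe, ha]
      have e2 : conjL (b * g * a⁻¹) (U : Set G) = (U : Set G) := by rw [conjL_coe, hcU]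
      have e3 : conjL b (Q : Set G) = (U : Set G) := by rw [conjL_coe, hb]
      have hUc : Foc D (U : Set G) (b * g * a⁻¹) :=
        hnorm U hUS hUfn (by rw [hcardU]) _ hcN
      have hUb : Foc D (U : Set G) b⁻¹ := by
        have := hQb.symm
        rwa [e3] at this
      have h1 : Foc D (P : Set G) ((b * g * a⁻¹) * a) :=
        hPa.trans (by rw [e1]; exact hUc)
      have h2 : Foc D (P : Set G) (b⁻¹ * ((b * g * a⁻¹) * a)) :=
        h1.trans (by rw [conjL_mul, e1, e2]; exact hUb)
      have e : b⁻¹ * ((b * g * a⁻¹) * a) = g := by group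
      rwa [e] at h2

end Cfsg.Agent.Lib.Helper14
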