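import Mathlib
import Cfsg.Prelude.Def_Transfer
import Cfsg.Agent.Lib.Helper1.Coprime
import Cfsg.Agent.Lib.Helper11.HypGen
import Cfsg.Agent.Lib.Helper11.ThompsonAB
import Cfsg.Agent.Lib.Helper11.Misc
import Cfsg.Agent.Lib.Helper14.TightEmb

set_option autoImplicit false

/-!
Coprime action of an elementary abelian `q`-group `Q` on a normal `p`-subgroup `P` in which only
two "directions" `X₁, X₂ ≤ Q` have fixed points: then `C_P(X₁)` and `C_P(X₂)` commute.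
-/

namespace Cfsg.Agent.Lib.Helper14

open scoped commutatorElement

section abstract

variable {H : Type*} [Group H]

theorem commElem_mul_of_comm {a b b' : H} (h : b * ⁅a, b'⁆ = ⁅a, b'⁆ * b) :
    ⁅a, b * b'⁆ = ⁅a, b⁆ * ⁅a, b'⁆ := by
  have h' : ⁅a, b'⁆ * b⁻¹ = b⁻¹ * ⁅a, b'⁆ := by
    calc ⁅a, b'⁆ * b⁻¹ = b⁻¹ * (b * ⁅a, b'⁆) * b⁻¹ := by group
      _ = b⁻¹ * (⁅a, b'⁆ * b) * b⁻¹ := by rw [h]
      _ = b⁻¹ * ⁅a, b'⁆ := by group
  calc ⁅a, b * b'⁆ = a * b * a⁻¹ * (⁅a, b'⁆ * b⁻¹) := by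
        simp only [commutatorElement_def]; group
    _ = a * b * a⁻¹ * (b⁻¹ * ⁅a, b'⁆) := by rw [h']
    _ = ⁅a, b⁆ * ⁅a, b'⁆ := by simp only [commutatorElement_def]; group

theorem commElem_inv_of_comm {a b : H} (h : b * ⁅a, b⁆ = ⁅a, b⁆ * b) :
    ⁅a, b⁻¹⁆ = ⁅a, b⁆⁻¹ := by
  have h' : ⁅a, b⁆⁻¹ * b = b * ⁅a, b⁆⁻¹ := by
    calc ⁅a, b⁆⁻¹ * b = ⁅a, b⁆⁻¹ * (b * ⁅a, b⁆) * ⁅a, b⁆⁻¹ := by group
      _ = ⁅a, b⁆⁻¹ * (⁅a, b⁆ * b) * ⁅a, b⁆⁻¹ := by rw [h]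
      _ = b * ⁅a, b⁆⁻¹ := by group
  calc ⁅a, b⁻¹⁆ = b⁻¹ * (⁅a, b⁆⁻¹ * b) := by simp only [commutatorElement_def]; group
    _ = b⁻¹ * (b * ⁅a, b⁆⁻¹) := by rw [h']
    _ = ⁅a, b⁆⁻¹ := by group

/-- If `[A, B] ≤ Z` with `Z` centralizing `B`, `Y` centralizes `A`, normalizes `B` and
`B = [B, Y]`, then `[A, B] ≤ [Z, Y]`. -/
theorem commutator_le_of_central_pairing (A B Z Y : Subgroup H)
    (hAB : ⁅A, B⁆ ≤ Z) (hZB : ∀ z ∈ Z, ∀ b ∈ B, b * z = z * b)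
    (hYA : ∀ y ∈ Y, ∀ a ∈ A, y * a = a * y)
    (hYB : ∀ y ∈ Y, ∀ b ∈ B, y * b * y⁻¹ ∈ B)
    (hB : B ≤ ⁅B, Y⁆) : ⁅A, B⁆ ≤ ⁅Z, Y⁆ := by
  rw [Subgroup.commutator_le]
  intro a ha
  let M : Subgroup H :=
    { carrier := {b | b ∈ B ∧ ⁅a, b⁆ ∈ ⁅Z, Y⁆}
      mul_mem' := by
        rintro b b' ⟨hb, hc⟩ ⟨hb', hc'⟩
        refine ⟨B.mul_mem hb hb', ?_⟩
        rw [commElem_mul_of_comm (hZB _ (hAB (Subgroup.commutator_mem_commutator ha hb')) b hb)]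
        exact Subgroup.mul_mem _ hc hc'
      one_mem' := ⟨B.one_mem, by rw [commutatorElement_one_right]; exact Subgroup.one_mem _⟩
      inv_mem' := by
        rintro b ⟨hb, hc⟩
        refine ⟨B.inv_mem hb, ?_⟩
        rw [commElem_inv_of_comm (hZB _ (hAB (Subgroup.commutator_mem_commutator ha hb)) b hb)]
        exact Subgroup.inv_mem _ hc }
  have hM : ⁅B, Y⁆ ≤ M := by
    rw [Subgroup.commutator_le]
    intro b' hb' y hy
    have hb'' : y * b' * y⁻¹ ∈ B := hYB y hy b' hb'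
    have hbinv : (y * b' * y⁻¹)⁻¹ ∈ B := B.inv_mem hb''
    have e1 : ⁅b', y⁆ = b' * (y * b' * y⁻¹)⁻¹ := by rw [commutatorElement_def]; group
    have hc' : ⁅a, b'⁆ ∈ Z := hAB (Subgroup.commutator_mem_commutator ha hb')
    have hd : ⁅a, y * b' * y⁻¹⁆ ∈ Z := hAB (Subgroup.commutator_mem_commutator ha hb'')
    have e2 : ⁅a, y * b' * y⁻¹⁆ = y * ⁅a, b'⁆ * y⁻¹ := by
      have hya := hYA y hy a ha
      calc ⁅a, y * b' * y⁻¹⁆ = (a * y) * b' * (a * y)⁻¹ * y * b'⁻¹ * y⁻¹ := by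
            rw [commutatorElement_def]; group
        _ = (y * a) * b' * (y * a)⁻¹ * y * b'⁻¹ * y⁻¹ := by rw [hya]
        _ = y * ⁅a, b'⁆ * y⁻¹ := by rw [commutatorElement_def]; group
    have e3 : ⁅a, ⁅b', y⁆⁆ = ⁅⁅a, b'⁆, y⁆ := by
      rw [e1, commElem_mul_of_comm
        (hZB _ (hAB (Subgroup.commutator_mem_commutator ha hbinv)) b' hb'),
        commElem_inv_of_comm (hZB _ hd _ hb''), e2]
      rw [commutatorElement_def ⁅a, b'⁆ y]; group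
    refine ⟨by rw [e1]; exact B.mul_mem hb' hbinv, ?_⟩
    rw [e3]
    exact Subgroup.commutator_mem_commutator hc' hy
  intro b hb
  exact (hM (hB hb)).2

end abstract

section concrete

variable {G : Type*} [Group G] [Finite G] {p q : ℕ} [Fact p.Prime] [Fact q.Prime]

omit [Finite G] [Fact p.Prime] [Fact q.Prime] in
/-- `X₁` normalizes `L ⊓ C(X₂)` for normal `L` and commuting `X₁`, `X₂`. -/
theorem twoFix_normalizes {Q X₁ X₂ : Subgroup G} (L : Subgroup G) [L.Normal]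
    (hQ : Cfsg.IsElementaryAbelian q Q) (h₁ : X₁ ≤ Q) (h₂ : X₂ ≤ Q) :
    X₁ ≤ Subgroup.normalizer ((L ⊓ Subgroup.centralizer (X₂ : Set G) : Subgroup G) : Set G) := by
  intro y hy
  apply mem_normalizer_inf
  · rw [Subgroup.normalizer_eq_top]; trivial
  · apply Subgroup.le_normalizer
    rw [Subgroup.mem_centralizer_iff]
    intro x hx
    exact Cfsg.Agent.Lib.Helper11.elemAb_comm hQ (h₂ hx) (h₁ hy)

theorem twoFix_not_dvd (hpq : p ≠ q) {P L : Subgroup G} (hP : IsPGroup p P) (hLP : L ≤ P) :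
    ¬ q ∣ Nat.card L := by
  intro hdvd
  obtain ⟨k, hk⟩ := IsPGroup.iff_card.mp (hP.to_le hLP)
  rw [hk] at hdvd
  have hq : q.Prime := Fact.out
  have := (Nat.prime_dvd_prime_iff_eq hq Fact.out).mp (hq.dvd_of_dvd_pow hdvd)
  exact hpq this.symm

/-- generation by the two fixed-point subgroups -/
theorem twoFix_gen (hpq : p ≠ q) (P Q X₁ X₂ L : Subgroup G) (hP : IsPGroup p P)
    (hQ : Cfsg.IsElementaryAbelian q Q)
    (h4 : ∀ B : Subgroup G, B ≤ Q → B.relIndex Q ≤ q →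
      X₁ ≤ B ∨ X₂ ≤ B ∨ P ⊓ Subgroup.centralizer (B : Set G) = ⊥)
    (hLP : L ≤ P) (hQL : Q ≤ Subgroup.normalizer (L : Set G)) :
    L ≤ (L ⊓ Subgroup.centralizer (X₁ : Set G)) ⊔ (L ⊓ Subgroup.centralizer (X₂ : Set G)) := by
  have hqL : ¬ q ∣ Nat.card L := twoFix_not_dvd hpq hP hLP
  have h1 := Cfsg.Agent.Lib.Helper11.hypGen_main q (Nat.card L) G Q L hQ hqL hQL le_rfl
  refine h1.trans ?_
  apply iSup_le
  rintro ⟨B, hBQ, hBq⟩
  rcases h4 B hBQ hBq with h | h | h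
  · exact le_sup_of_le_left (inf_le_inf_left L (Subgroup.centralizer_le h))
  · exact le_sup_of_le_right (inf_le_inf_left L (Subgroup.centralizer_le h))
  · have h2 : L ⊓ Subgroup.centralizer (B : Set G) ≤ P ⊓ Subgroup.centralizer (B : Set G) :=
      inf_le_inf_right _ hLP
    rw [h] at h2
    exact h2.trans bot_le

theorem twoFix_comm_self (hpq : p ≠ q) (P Q X₁ X₂ : Subgroup G) [P.Normal] (hP : IsPGroup p P)
    (hQ : Cfsg.IsElementaryAbelian q Q) (h₁ : X₁ ≤ Q) (h₂ : X₂ ≤ Q)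
    (h5 : P ⊓ Subgroup.centralizer (X₁ : Set G) ⊓ Subgroup.centralizer (X₂ : Set G) = ⊥) :
    ⁅P ⊓ Subgroup.centralizer (X₂ : Set G), X₁⁆ = P ⊓ Subgroup.centralizer (X₂ : Set G) := by
  have hAK := twoFix_normalizes P hQ h₁ h₂
  have hcop : (Nat.card X₁).Coprime (Nat.card ↥(P ⊓ Subgroup.centralizer (X₂ : Set G))) :=
    Cfsg.Agent.Lib.Helper11.elemAb_coprime hQ h₁ (twoFix_not_dvd hpq hP inf_le_left)
  have h := Cfsg.Agent.Lib.Helper1.coprime_commutator_sup X₁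
    (P ⊓ Subgroup.centralizer (X₂ : Set G)) hAK hcop
    (Or.inl (Cfsg.Agent.Lib.Helper11.elemAb_solvable hQ h₁))
  rw [inf_right_comm, h5, sup_bot_eq] at h
  exact h

theorem twoFix_half (hpq : p ≠ q) (P Q X₁ X₂ L : Subgroup G) [P.Normal] [L.Normal]
    (hP : IsPGroup p P) (hQ : Cfsg.IsElementaryAbelian q Q) (h₁ : X₁ ≤ Q) (h₂ : X₂ ≤ Q)
    (h4 : ∀ B : Subgroup G, B ≤ Q → B.relIndex Q ≤ q →
      X₁ ≤ B ∨ X₂ ≤ B ∨ P ⊓ Subgroup.centralizer (B : Set G) = ⊥)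
    (h5 : P ⊓ Subgroup.centralizer (X₁ : Set G) ⊓ Subgroup.centralizer (X₂ : Set G) = ⊥)
    (hLP : L ≤ P)
    (hL : ⁅P ⊓ Subgroup.centralizer (X₁ : Set G), P ⊓ Subgroup.centralizer (X₂ : Set G)⁆ ≤ L) :
    (⁅P ⊓ Subgroup.centralizer (X₁ : Set G), P ⊓ Subgroup.centralizer (X₂ : Set G)⁆).map
        (QuotientGroup.mk' ⁅L, P⁆) ≤
      (L ⊓ Subgroup.centralizer (X₂ : Set G)).map (QuotientGroup.mk' ⁅L, P⁆) := by
  obtain ⟨π, hπ⟩ : ∃ π : G →* G ⧸ ⁅L, P⁆, π = QuotientGroup.mk' ⁅L, P⁆ := ⟨_, rfl⟩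
  rw [← hπ]
  have hker : ∀ g : G, g ∈ ⁅L, P⁆ → π g = 1 := by
    intro g hg; rw [hπ]; exact (QuotientGroup.eq_one_iff g).mpr hg
  have hnorm := twoFix_normalizes (X₁ := X₁) (X₂ := X₂) P hQ h₁ h₂
  have hZP : ∀ l ∈ L, ∀ b ∈ P, π b * π l = π l * π b := by
    intro l hl b hb
    have h1 : ⁅b⁻¹, l⁻¹⁆ ∈ ⁅L, P⁆ := by
      rw [Subgroup.commutator_comm]
      exact Subgroup.commutator_mem_commutator (P.inv_mem hb) (L.inv_mem hl)
    have h2 := hker _ h1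
    rw [commutatorElement_def] at h2
    simp only [map_mul, map_inv, inv_inv] at h2
    calc π b * π l = π l * π b * ((π b)⁻¹ * (π l)⁻¹ * π b * π l) := by group
      _ = π l * π b := by rw [h2, mul_one]
  have hAB : ⁅(P ⊓ Subgroup.centralizer (X₁ : Set G)).map π,
      (P ⊓ Subgroup.centralizer (X₂ : Set G)).map π⁆ ≤ L.map π := by
    rw [← Subgroup.map_commutator]; exact Subgroup.map_mono hL
  have hZB : ∀ z ∈ L.map π, ∀ b ∈ (P ⊓ Subgroup.centralizer (X₂ : Set G)).map π,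
      b * z = z * b := by
    rintro _ ⟨l, hl, rfl⟩ _ ⟨b, hb, rfl⟩
    exact hZP l hl b hb.1
  have hYA : ∀ y ∈ X₁.map π, ∀ a ∈ (P ⊓ Subgroup.centralizer (X₁ : Set G)).map π,
      y * a = a * y := by
    rintro _ ⟨x, hx, rfl⟩ _ ⟨a, ha, rfl⟩
    have := (Subgroup.mem_centralizer_iff.mp ha.2) x hx
    rw [← map_mul, ← map_mul, this]
  have hYB : ∀ y ∈ X₁.map π, ∀ b ∈ (P ⊓ Subgroup.centralizer (X₂ : Set G)).map π,
      y * b * y⁻¹ ∈ (P ⊓ Subgroup.centralizer (X₂ : Set G)).map π := by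
    rintro _ ⟨x, hx, rfl⟩ _ ⟨b, hb, rfl⟩
    have h1 := (Subgroup.mem_normalizer_iff.mp (hnorm hx) b).mp hb
    rw [← map_inv, ← map_mul, ← map_mul]
    exact Subgroup.mem_map_of_mem π h1
  have hB : (P ⊓ Subgroup.centralizer (X₂ : Set G)).map π ≤
      ⁅(P ⊓ Subgroup.centralizer (X₂ : Set G)).map π, X₁.map π⁆ := by
    rw [← Subgroup.map_commutator, twoFix_comm_self hpq P Q X₁ X₂ hP hQ h₁ h₂ h5]
  have hcomm := commutator_le_of_central_pairing _ _ _ _ hAB hZB hYA hYB hB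
  rw [Subgroup.map_commutator]
  refine hcomm.trans ?_
  rw [Subgroup.commutator_le]
  rintro _ ⟨l, hl, rfl⟩ _ ⟨x, hx, rfl⟩
  have hQL : Q ≤ Subgroup.normalizer (L : Set G) := by
    intro g _; rw [Subgroup.normalizer_eq_top]; trivial
  have hl' : π l ∈ (L ⊓ Subgroup.centralizer (X₁ : Set G)).map π ⊔
      (L ⊓ Subgroup.centralizer (X₂ : Set G)).map π := by
    rw [← Subgroup.map_sup]
    exact Subgroup.mem_map_of_mem π (twoFix_gen hpq P Q X₁ X₂ L hP hQ h4 hLP hQL hl)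
  have hNZ : (L ⊓ Subgroup.centralizer (X₂ : Set G)).map π ≤ Subgroup.normalizer
      (((L ⊓ Subgroup.centralizer (X₁ : Set G)).map π : Subgroup (G ⧸ ⁅L, P⁆)) :
        Set (G ⧸ ⁅L, P⁆)) := by
    refine le_trans ?_ (Subgroup.centralizer_le_normalizer _)
    rintro _ ⟨u, hu, rfl⟩
    rw [Subgroup.mem_centralizer_iff]
    rintro _ ⟨v, hv, rfl⟩
    exact (hZP u hu.1 v (hLP hv.1))
  obtain ⟨z₁, hz₁, z₂, hz₂, hz⟩ := Cfsg.Agent.Lib.Helper11.mem_sup_of_le_normalizer hNZ hl'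
  obtain ⟨l₁, hl₁, rfl⟩ := hz₁
  obtain ⟨l₂, hl₂, rfl⟩ := hz₂
  rw [hz]
  have hxl : x * l₁ = l₁ * x := (Subgroup.mem_centralizer_iff.mp hl₁.2) x hx
  have hcl : ⁅l₂, x⁆ ∈ L ⊓ Subgroup.centralizer (X₂ : Set G) := by
    have hn := twoFix_normalizes (X₁ := X₁) (X₂ := X₂) L hQ h₁ h₂ hx
    have h1 := (Subgroup.mem_normalizer_iff.mp hn l₂⁻¹).mp (Subgroup.inv_mem _ hl₂)
    have h2 : ⁅l₂, x⁆ = l₂ * (x * l₂⁻¹ * x⁻¹) := by rw [commutatorElement_def]; group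
    rw [h2]
    exact Subgroup.mul_mem _ hl₂ h1
  have e1 : ⁅l₁ * l₂, x⁆ = ⁅l₁, ⁅l₂, x⁆⁆ * ⁅l₂, x⁆ := by
    have hxl' : l₁⁻¹ * x⁻¹ = x⁻¹ * l₁⁻¹ := by
      rw [← mul_inv_rev, ← mul_inv_rev, hxl]
    calc ⁅l₁ * l₂, x⁆ = l₁ * l₂ * x * l₂⁻¹ * (l₁⁻¹ * x⁻¹) := by
          rw [commutatorElement_def]; group
      _ = l₁ * l₂ * x * l₂⁻¹ * (x⁻¹ * l₁⁻¹) := by rw [hxl']
      _ = ⁅l₁, ⁅l₂, x⁆⁆ * ⁅l₂, x⁆ := by simp only [commutatorElement_def]; group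
  have e2 : ⁅π l₁ * π l₂, π x⁆ = π ⁅l₂, x⁆ := by
    rw [← map_mul, ← map_commutatorElement, e1, map_mul,
      hker _ (Subgroup.commutator_mem_commutator hl₁.1 (hLP hcl.1)), one_mul]
  rw [e2]
  exact Subgroup.mem_map_of_mem π hcl

theorem twoFix_step (hpq : p ≠ q) (P Q X₁ X₂ L : Subgroup G) [P.Normal] [L.Normal]
    (hP : IsPGroup p P) (hQ : Cfsg.IsElementaryAbelian q Q) (h₁ : X₁ ≤ Q) (h₂ : X₂ ≤ Q)
    (h4 : ∀ B : Subgroup G, B ≤ Q → B.relIndex Q ≤ q →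
      X₁ ≤ B ∨ X₂ ≤ B ∨ P ⊓ Subgroup.centralizer (B : Set G) = ⊥)
    (h5 : P ⊓ Subgroup.centralizer (X₁ : Set G) ⊓ Subgroup.centralizer (X₂ : Set G) = ⊥)
    (hLP : L ≤ P)
    (hL : ⁅P ⊓ Subgroup.centralizer (X₁ : Set G), P ⊓ Subgroup.centralizer (X₂ : Set G)⁆ ≤ L) :
    ⁅P ⊓ Subgroup.centralizer (X₁ : Set G), P ⊓ Subgroup.centralizer (X₂ : Set G)⁆ ≤ ⁅L, P⁆ := by
  intro c hc
  have h4' : ∀ B : Subgroup G, B ≤ Q → B.relIndex Q ≤ q →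
      X₂ ≤ B ∨ X₁ ≤ B ∨ P ⊓ Subgroup.centralizer (B : Set G) = ⊥ := by
    intro B hB hBq
    rcases h4 B hB hBq with h | h | h
    · exact Or.inr (Or.inl h)
    · exact Or.inl h
    · exact Or.inr (Or.inr h)
  have h5' : P ⊓ Subgroup.centralizer (X₂ : Set G) ⊓ Subgroup.centralizer (X₁ : Set G) = ⊥ := by
    rw [inf_right_comm]; exact h5
  have hL' : ⁅P ⊓ Subgroup.centralizer (X₂ : Set G), P ⊓ Subgroup.centralizer (X₁ : Set G)⁆ ≤ L := by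
    rw [Subgroup.commutator_comm]; exact hL
  have hc' : c ∈ ⁅P ⊓ Subgroup.centralizer (X₂ : Set G),
      P ⊓ Subgroup.centralizer (X₁ : Set G)⁆ := by
    rw [Subgroup.commutator_comm]; exact hc
  obtain ⟨z₂, hz₂, hz₂c⟩ := twoFix_half hpq P Q X₁ X₂ L hP hQ h₁ h₂ h4 h5 hLP hL
    (Subgroup.mem_map_of_mem _ hc)
  obtain ⟨z₁, hz₁, hz₁c⟩ := twoFix_half hpq P Q X₂ X₁ L hP hQ h₂ h₁ h4' h5' hLP hL'
    (Subgroup.mem_map_of_mem _ hc')
  have hAK := twoFix_normalizes (X₁ := X₂) (X₂ := X₁) L hQ h₂ h₁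
  have hcop : (Nat.card X₂).Coprime (Nat.card ↥(L ⊓ Subgroup.centralizer (X₁ : Set G))) :=
    Cfsg.Agent.Lib.Helper11.elemAb_coprime hQ h₂
      (twoFix_not_dvd hpq hP (inf_le_left.trans hLP))
  have hNn : L ⊓ Subgroup.centralizer (X₁ : Set G) ≤ Subgroup.normalizer
      ((⁅L, P⁆ ⊓ (L ⊓ Subgroup.centralizer (X₁ : Set G)) : Subgroup G) : Set G) := by
    intro g hg
    apply mem_normalizer_inf
    · rw [Subgroup.normalizer_eq_top]; trivial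
    · exact Subgroup.le_normalizer hg
  have hNA : X₂ ≤ Subgroup.normalizer
      ((⁅L, P⁆ ⊓ (L ⊓ Subgroup.centralizer (X₁ : Set G)) : Subgroup G) : Set G) := by
    intro g hg
    apply mem_normalizer_inf
    · rw [Subgroup.normalizer_eq_top]; trivial
    · exact hAK hg
  have hfix : ∀ a ∈ X₂, a * z₁ * a⁻¹ * z₁⁻¹ ∈
      ⁅L, P⁆ ⊓ (L ⊓ Subgroup.centralizer (X₁ : Set G)) := by
    intro a ha
    refine Subgroup.mem_inf.mpr ⟨?_, ?_⟩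
    · rw [← QuotientGroup.eq_one_iff]
      have haz : a * z₂ = z₂ * a := (Subgroup.mem_centralizer_iff.mp hz₂.2) a ha
      have h1 : QuotientGroup.mk' ⁅L, P⁆ (a * z₁ * a⁻¹ * z₁⁻¹) =
          QuotientGroup.mk' ⁅L, P⁆ (a * z₂ * a⁻¹ * z₂⁻¹) := by
        simp only [map_mul, map_inv, hz₁c, hz₂c]
      have h2 : a * z₂ * a⁻¹ * z₂⁻¹ = 1 := by rw [haz]; group
      rw [h2, map_one] at h1
      exact h1
    · have h1 := (Subgroup.mem_normalizer_iff.mp (hAK ha) z₁).mp hz₁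
      exact Subgroup.mul_mem _ h1 (Subgroup.inv_mem _ hz₁)
  obtain ⟨c₀, hc₀, hc₀'⟩ := Cfsg.Agent.Lib.Helper1.coprime_fixed_quotient X₂
    (L ⊓ Subgroup.centralizer (X₁ : Set G)) hAK hcop
    (Or.inl (Cfsg.Agent.Lib.Helper11.elemAb_solvable hQ h₂))
    (⁅L, P⁆ ⊓ (L ⊓ Subgroup.centralizer (X₁ : Set G))) inf_le_right hNn hNA z₁ hz₁ hfix
  have hc₀1 : c₀ = 1 := by
    have h1 : c₀ ∈ P ⊓ Subgroup.centralizer (X₁ : Set G) ⊓ Subgroup.centralizer (X₂ : Set G) :=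
      Subgroup.mem_inf.mpr ⟨Subgroup.mem_inf.mpr ⟨hLP hc₀.1.1, hc₀.1.2⟩, hc₀.2⟩
    rw [h5] at h1
    exact Subgroup.mem_bot.mp h1
  rw [hc₀1, mul_one] at hc₀'
  have hz₁L : z₁ ∈ ⁅L, P⁆ := by
    have := Subgroup.inv_mem _ hc₀'.1
    rwa [inv_inv] at this
  rw [← QuotientGroup.eq_one_iff]
  have h3 : QuotientGroup.mk' ⁅L, P⁆ z₁ = 1 := (QuotientGroup.eq_one_iff z₁).mpr hz₁L
  rw [hz₁c] at h3
  exact h3

/-- the two fixed-point subgroups commute -/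
theorem twoFix_commutator (hpq : p ≠ q) (P Q X₁ X₂ : Subgroup G) [P.Normal]
    (hP : IsPGroup p P) (hQ : Cfsg.IsElementaryAbelian q Q) (h₁ : X₁ ≤ Q) (h₂ : X₂ ≤ Q)
    (h4 : ∀ B : Subgroup G, B ≤ Q → B.relIndex Q ≤ q →
      X₁ ≤ B ∨ X₂ ≤ B ∨ P ⊓ Subgroup.centralizer (B : Set G) = ⊥)
    (h5 : P ⊓ Subgroup.centralizer (X₁ : Set G) ⊓ Subgroup.centralizer (X₂ : Set G) = ⊥) :
    ⁅P ⊓ Subgroup.centralizer (X₁ : Set G), P ⊓ Subgroup.centralizer (X₂ : Set G)⁆ = ⊥ := by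
  have key : ∀ n : ℕ, ∀ L : Subgroup G, L.Normal → L ≤ P → Nat.card L ≤ n →
      ⁅P ⊓ Subgroup.centralizer (X₁ : Set G), P ⊓ Subgroup.centralizer (X₂ : Set G)⁆ ≤ L →
      ⁅P ⊓ Subgroup.centralizer (X₁ : Set G), P ⊓ Subgroup.centralizer (X₂ : Set G)⁆ = ⊥ := by
    intro n
    induction n using Nat.strong_induction_on with
    | _ n ih =>
      intro L hLn hLP hcard hL
      by_cases hbot : L = ⊥
      · rw [hbot] at hL; exact le_bot_iff.mp hL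
      · have hstep := twoFix_step hpq P Q X₁ X₂ L hP hQ h₁ h₂ h4 h5 hLP hL
        have hle : ⁅L, P⁆ ≤ L := Subgroup.commutator_le_left L P
        have hPL : P ≤ Subgroup.normalizer (L : Set G) := by
          intro g _; rw [Subgroup.normalizer_eq_top]; trivial
        have hne : ⁅L, P⁆ ≠ L := fun h =>
          hbot (Cfsg.Agent.Lib.Helper11.pgroup_commutator_eq_self (hP.to_le hLP) hP hPL h)
        have hcardlt : Nat.card ↥⁅L, P⁆ < Nat.card L := by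
          rcases (Subgroup.card_le_of_le hle).lt_or_eq with h | h
          · exact h
          · exact absurd (Subgroup.eq_of_le_of_card_ge hle h.ge) hne
        exact ih (Nat.card ↥⁅L, P⁆) (lt_of_lt_of_le hcardlt hcard) ⁅L, P⁆ inferInstance
          (hle.trans hLP) le_rfl hstep
  exact key (Nat.card P) P inferInstance le_rfl le_rfl
    ((Subgroup.commutator_mono inf_le_left inf_le_left).trans (Subgroup.commutator_le_left P P))

end concrete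

end Cfsg.Agent.Lib.Helper14
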