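import Mathlib

set_option autoImplicit false

namespace Cfsg.Agent.Lib.Helper14

open Polynomial

/-- In characteristic `p`, `(X - 1) ^ (p - 1) = 1 + X + ⋯ + X ^ (p - 1)`. -/
theorem poly_sub_one_pow_pred (p : ℕ) [Fact p.Prime] :
    ((X : (ZMod p)[X]) - 1) ^ (p - 1) = ∑ i ∈ Finset.range p, (X : (ZMod p)[X]) ^ i := by
  have hp : p - 1 + 1 = p := Nat.sub_add_cancel (Fact.out : p.Prime).one_le
  have h1 : ((X : (ZMod p)[X]) - 1) ^ p = X ^ p - 1 := by
    have := sub_pow_char (X : (ZMod p)[X]) 1 (p := p)
    simpa using this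
  have h2 := mul_geom_sum (X : (ZMod p)[X]) p
  have h3 : ((X : (ZMod p)[X]) - 1) * (X - 1) ^ (p - 1) =
      (X - 1) * ∑ i ∈ Finset.range p, (X : (ZMod p)[X]) ^ i := by
    rw [h2, ← h1, ← pow_succ', hp]
  have h4 : (X : (ZMod p)[X]) - 1 ≠ 0 := by
    have := X_sub_C_ne_zero (1 : ZMod p)
    simpa using this
  exact mul_left_cancel₀ h4 h3

theorem poly_sub_one_pow (p : ℕ) [Fact p.Prime] :
    ((X : (ZMod p)[X]) - 1) ^ p = X ^ p - 1 := by
  have := sub_pow_char (X : (ZMod p)[X]) 1 (p := p)
  simpa using this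

/-- For an endomorphism `c` of an abelian group of exponent `p` with `c ^ p = 1`, the operator
`D = c - 1` satisfies `D ^ p = 0` and `D ^ (p - 1) = 1 + c + ⋯ + c ^ (p - 1)`. -/
theorem iter_sub_one {A : Type*} [CommGroup A] (p : ℕ) [Fact p.Prime] (hexp : ∀ a : A, a ^ p = 1)
    (c : A →* A) (hc : ∀ a, c^[p] a = a) (a : A) :
    (fun b => c b / b)^[p] a = 1 ∧
      (fun b => c b / b)^[p - 1] a = ∏ i ∈ Finset.range p, c^[i] a := by
  have hexp' : ∀ v : Additive A, p • v = 0 := fun v => congrArg Additive.ofMul (hexp v.toMul)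
  let _ : Module (ZMod p) (Additive A) := AddCommGroup.zmodModule (n := p) hexp'
  let t : Module.End (ZMod p) (Additive A) := AddMonoidHom.toZModLinearMap p (MonoidHom.toAdditive c)
  have htk : ∀ (k : ℕ) (v : Additive A), (t ^ k) v = Additive.ofMul (c^[k] v.toMul) := by
    intro k
    induction k with
    | zero => intro v; rfl
    | succ k ih =>
      intro v
      rw [pow_succ, Module.End.mul_apply, ih, Function.iterate_succ_apply]
      rfl
  have ht : t ^ p = 1 := by
    ext v
    rw [htk, hc]
    rfl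
  have hDk : ∀ (k : ℕ) (v : Additive A),
      ((t - 1) ^ k) v = Additive.ofMul ((fun b => c b / b)^[k] v.toMul) := by
    intro k
    induction k with
    | zero => intro v; rfl
    | succ k ih =>
      intro v
      rw [pow_succ, Module.End.mul_apply, ih, Function.iterate_succ_apply]
      rfl
  have e1 : (t - 1) ^ p = 0 := by
    have := congrArg (Polynomial.aeval t) (poly_sub_one_pow p)
    simp only [map_pow, map_sub, aeval_X, map_one] at this
    rw [this, ht, sub_self]
  have e2 : (t - 1) ^ (p - 1) = ∑ i ∈ Finset.range p, t ^ i := by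
    have := congrArg (Polynomial.aeval t) (poly_sub_one_pow_pred p)
    simpa only [map_pow, map_sub, aeval_X, map_one, map_sum] using this
  constructor
  · have := hDk p (Additive.ofMul a)
    rw [e1] at this
    exact (congrArg Additive.toMul this).symm
  · have := hDk (p - 1) (Additive.ofMul a)
    rw [e2, LinearMap.sum_apply] at this
    simp only [htk] at this
    rw [← ofMul_prod] at this
    exact (congrArg Additive.toMul this).symm

/-- A strict chain of kernels: if `D ^ (n + 1) x ∈ K` but `D ^ n x ∉ K` for a `D`-invariant subgroup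
`K` of a `p`-group, then `K` has index at least `p ^ (n + 1)`. -/
theorem card_chain_bound {A : Type*} [Group A] [Finite A] (p : ℕ) [Fact p.Prime]
    (hA : IsPGroup p A) (D : A →* A) (K : Subgroup A) (hK : ∀ a ∈ K, D a ∈ K) (x : A) (n : ℕ)
    (h1 : D^[n + 1] x ∈ K) (h2 : D^[n] x ∉ K) : p ^ (n + 1) * Nat.card K ≤ Nat.card A := by
  obtain ⟨C, hC0, hCs⟩ : ∃ C : ℕ → Subgroup A, C 0 = K ∧ ∀ k, C (k + 1) = (C k).comap D :=
    ⟨fun k => Nat.rec K (fun _ C => C.comap D) k, rfl, fun _ => rfl⟩
  have mem_C : ∀ k a, a ∈ C k ↔ D^[k] a ∈ K := by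
    intro k
    induction k with
    | zero => intro a; rw [hC0]; exact Iff.rfl
    | succ k ih => intro a; rw [hCs, Subgroup.mem_comap, ih, Function.iterate_succ_apply]
  have hmono : ∀ k, C k ≤ C (k + 1) := by
    intro k a ha
    rw [mem_C] at ha
    rw [mem_C, Function.iterate_succ_apply']
    exact hK _ ha
  have hcard : ∀ k, k ≤ n + 1 → p ^ k * Nat.card K ≤ Nat.card (C k) := by
    intro k
    induction k with
    | zero => intro _; simp [hC0]
    | succ k ih =>
      intro hk
      have hw1 : D^[n - k] x ∈ C (k + 1) := by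
        rw [mem_C, ← Function.iterate_add_apply]
        have : k + 1 + (n - k) = n + 1 := by omega
        rw [this]; exact h1
      have hw2 : D^[n - k] x ∉ C k := by
        rw [mem_C, ← Function.iterate_add_apply]
        have : k + (n - k) = n := by omega
        rw [this]; exact h2
      have hlt : Nat.card (C k) < Nat.card (C (k + 1)) := by
        by_contra hge
        push Not at hge
        have := Subgroup.eq_of_le_of_card_ge (hmono k) hge
        exact hw2 (this ▸ hw1)
      obtain ⟨a, ha⟩ := IsPGroup.iff_card.mp (hA.to_subgroup (C k))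
      obtain ⟨b, hb⟩ := IsPGroup.iff_card.mp (hA.to_subgroup (C (k + 1)))
      rw [ha, hb] at hlt
      have hab : a < b := (Nat.pow_lt_pow_iff_right (Fact.out : p.Prime).one_lt).mp hlt
      calc p ^ (k + 1) * Nat.card K = p * (p ^ k * Nat.card K) := by ring
        _ ≤ p * Nat.card (C k) := Nat.mul_le_mul_left _ (ih (by omega))
        _ = p ^ (a + 1) := by rw [ha]; ring
        _ ≤ p ^ b := Nat.pow_le_pow_right (Fact.out : p.Prime).pos hab
        _ = Nat.card (C (k + 1)) := hb.symm
  exact (hcard (n + 1) le_rfl).trans (Subgroup.card_le_card_group _)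

/-- The order of a Sylow `p`-subgroup of the symmetric group of degree `p ^ 2`. -/
theorem card_sylow_perm_sq (p : ℕ) [hp : Fact p.Prime] (Q : Sylow p (Equiv.Perm (Fin (p ^ 2)))) :
    Nat.card Q = p ^ (p + 1) := by
  rw [Sylow.card_eq_multiplicity, Nat.card_perm, Nat.card_fin,
    ← Nat.multiplicity_eq_factorization hp.out (p ^ 2).factorial_ne_zero,
    Nat.Prime.multiplicity_factorial_pow hp.out]
  congr 1
  simp [Finset.sum_range_succ]
  ring

/-- In an elementary abelian `p`-group, a non-identity element lies outside the kernel of a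
homomorphism onto a group of order `p`. -/
theorem exists_index_p_not_mem {A : Type*} [CommGroup A] (p : ℕ) [Fact p.Prime]
    (hexp : ∀ a : A, a ^ p = 1) (z : A) (hz : z ≠ 1) :
    ∃ H : Subgroup A, H.index = p ∧ z ∉ H := by
  have hexp' : ∀ v : Additive A, p • v = 0 := fun v => congrArg Additive.ofMul (hexp v.toMul)
  let _ : Module (ZMod p) (Additive A) := AddCommGroup.zmodModule (n := p) hexp'
  have hv : Additive.ofMul z ≠ 0 := fun h => hz (congrArg Additive.toMul h)
  obtain ⟨φ, hφ⟩ := Module.Projective.exists_dual_ne_zero (ZMod p) hv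
  let g : A →* Multiplicative (ZMod p) :=
    { toFun := fun a => Multiplicative.ofAdd (φ (Additive.ofMul a))
      map_one' := by
        have : Additive.ofMul (1 : A) = 0 := rfl
        rw [this, map_zero]; rfl
      map_mul' := fun a b => by
        have : Additive.ofMul (a * b) = Additive.ofMul a + Additive.ofMul b := rfl
        rw [this, map_add]; rfl }
  have hgz : g z ≠ 1 := fun h => hφ (congrArg Multiplicative.toAdd h)
  refine ⟨g.ker, ?_, fun h => hgz (MonoidHom.mem_ker.mp h)⟩
  rw [Subgroup.index_ker]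
  have hdvd : Nat.card g.range ∣ p := by
    have := Subgroup.card_subgroup_dvd_card g.range
    rwa [Nat.card_congr Multiplicative.toAdd, Nat.card_zmod] at this
  rcases (Nat.dvd_prime (Fact.out : p.Prime)).mp hdvd with h | h
  · exfalso
    have hbot : g.range = ⊥ := Subgroup.card_eq_one.mp h
    have : g z ∈ g.range := ⟨z, rfl⟩
    rw [hbot, Subgroup.mem_bot] at this
    exact hgz this
  · exact h

open scoped IsMulCommutative in
/-- A `p`-group with an elementary abelian normal subgroup `A` of index `p` and an element `x ∈ A`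
whose "norm" under `y ∉ A` is non-trivial maps onto a Sylow `p`-subgroup of the symmetric group of
degree `p ^ 2`. -/
theorem exists_surj_sylow_perm {P : Type*} [Group P] [Finite P] {p : ℕ} [Fact p.Prime]
    (hP : IsPGroup p P) (A : Subgroup P) [A.Normal] [IsMulCommutative A]
    (hexp : ∀ a ∈ A, a ^ p = 1) (hidx : A.index = p) (x y : P) (hx : x ∈ A)
    (hprod : ((List.range p).map (fun i => (y ^ i)⁻¹ * x * y ^ i)).prod ≠ 1) :
    ∃ (Q : Sylow p (Equiv.Perm (Fin (p ^ 2))))
      (f : P →* ↥(Q : Subgroup (Equiv.Perm (Fin (p ^ 2))))), Function.Surjective f := by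
  have hp : p.Prime := Fact.out
  have hexpA : ∀ a : A, a ^ p = 1 := fun a => Subtype.ext (by simpa using hexp a a.2)
  -- conjugation by `y⁻¹` on `A`
  let c : A →* A := (MulAut.conjNormal y⁻¹ : MulAut A).toMonoidHom
  have hc1 : ∀ a : A, ((c a : A) : P) = y⁻¹ * a * y := by
    intro a
    have : ((c a : A) : P) = y⁻¹ * a * y⁻¹⁻¹ := rfl
    rw [this, inv_inv]
  have hci : ∀ (i : ℕ) (a : A), ((c^[i] a : A) : P) = (y ^ i)⁻¹ * a * y ^ i := by
    intro i
    induction i with
    | zero => intro a; simp
    | succ i ih =>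
      intro a
      rw [Function.iterate_succ_apply', hc1, ih, pow_succ]
      group
  have hyp : y ^ p ∈ A := by
    have := Subgroup.pow_index_mem A y
    rwa [hidx] at this
  have hc : ∀ a : A, c^[p] a = a := by
    intro a
    apply Subtype.ext
    rw [hci]
    have hcomm : (⟨y ^ p, hyp⟩ : A) * a = a * ⟨y ^ p, hyp⟩ := mul_comm _ _
    have hcomm' : y ^ p * (a : P) = a * y ^ p := congrArg Subtype.val hcomm
    rw [mul_assoc, ← hcomm', inv_mul_cancel_left]
  set x' : A := ⟨x, hx⟩ with hx'
  obtain ⟨hD1, hD2⟩ := iter_sub_one p hexpA c hc x'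
  set N : A := ∏ i ∈ Finset.range p, c^[i] x' with hN
  have hlist : ∀ n : ℕ, ((List.range n).map (fun i => (y ^ i)⁻¹ * x * y ^ i)).prod =
      ((∏ i ∈ Finset.range n, c^[i] x' : A) : P) := by
    intro n
    induction n with
    | zero => simp
    | succ n ih =>
      rw [List.range_succ, List.map_append, List.prod_append, ih, Finset.prod_range_succ,
        Subgroup.coe_mul, hci]
      simp [hx']
  have hN1 : N ≠ 1 := by
    intro h
    apply hprod
    rw [hlist, ← hN, h]
    rfl
  obtain ⟨H', hH'idx, hNH'⟩ := exists_index_p_not_mem p hexpA N hN1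
  set H : Subgroup P := H'.map A.subtype with hH
  have hHidx : H.index = p ^ 2 := by
    rw [hH, Subgroup.index_map_subtype, hH'idx, hidx, sq]
  have hHA : H ≤ A := by
    rw [hH]
    exact Subgroup.map_subtype_le H'
  have hNH : (N : P) ∉ H := by
    intro h
    rw [hH] at h
    obtain ⟨a, ha, hae⟩ := Subgroup.mem_map.mp h
    have : a = N := Subtype.ext hae
    exact hNH' (this ▸ ha)
  set K : Subgroup P := H.normalCore with hK
  have hKH : K ≤ H := Subgroup.normalCore_le H
  have hKA : K ≤ A := hKH.trans hHA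
  -- the operator `D = c - 1`
  let D : A →* A :=
    { toFun := fun b => c b / b
      map_one' := by simp
      map_mul' := fun a b => by simp [mul_div_mul_comm] }
  have hDK : ∀ a ∈ K.subgroupOf A, D a ∈ K.subgroupOf A := by
    intro a ha
    rw [Subgroup.mem_subgroupOf] at ha ⊢
    have h1 : ((D a : A) : P) = (y⁻¹ * a * y) * (a : P)⁻¹ := by
      have : D a = c a / a := rfl
      rw [this, div_eq_mul_inv, Subgroup.coe_mul, hc1, Subgroup.coe_inv]
    rw [h1]
    have h2 : y⁻¹ * (a : P) * y ∈ K := by
      have := (inferInstance : K.Normal).conj_mem _ ha y⁻¹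
      rwa [inv_inv] at this
    exact K.mul_mem h2 (K.inv_mem ha)
  have hpp : p - 1 + 1 = p := Nat.sub_add_cancel hp.one_le
  have hb1 : D^[p - 1 + 1] x' ∈ K.subgroupOf A := by
    rw [hpp]
    have : D^[p] x' = 1 := hD1
    rw [this]
    exact Subgroup.one_mem _
  have hb2 : D^[p - 1] x' ∉ K.subgroupOf A := by
    have : D^[p - 1] x' = N := hD2
    rw [this, Subgroup.mem_subgroupOf]
    exact fun h => hNH (hKH h)
  have hAp : IsPGroup p A := hP.to_subgroup A
  have hbound := card_chain_bound p hAp D (K.subgroupOf A) hDK x' (p - 1) hb1 hb2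
  rw [hpp, Nat.card_congr (Subgroup.subgroupOfEquivOfLe hKA).toEquiv] at hbound
  -- the index of `K`
  have hKidx : p ^ (p + 1) ≤ K.index := by
    have h1 := Subgroup.card_mul_index K
    have h2 := Subgroup.card_mul_index A
    rw [hidx] at h2
    have h3 : p ^ (p + 1) * Nat.card K ≤ K.index * Nat.card K := by
      calc p ^ (p + 1) * Nat.card K = (p ^ p * Nat.card K) * p := by ring
        _ ≤ Nat.card A * p := Nat.mul_le_mul_right _ hbound
        _ = K.index * Nat.card K := by rw [h2, ← h1, mul_comm]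
    exact Nat.le_of_mul_le_mul_right h3 Nat.card_pos
  -- the permutation representation
  have hcardq : Nat.card (P ⧸ H) = p ^ 2 := by rw [← Subgroup.index_eq_card, hHidx]
  let e : P ⧸ H ≃ Fin (p ^ 2) := Finite.equivFinOfCardEq hcardq
  let g0 : P →* Equiv.Perm (Fin (p ^ 2)) :=
    e.permCongrHom.toMonoidHom.comp (MulAction.toPermHom P (P ⧸ H))
  have hker : g0.ker = K := by
    ext a
    rw [MonoidHom.mem_ker, hK, Subgroup.normalCore_eq_ker, MonoidHom.mem_ker]
    exact MulEquiv.map_eq_one_iff e.permCongrHom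
  have hrange : Nat.card g0.range = K.index := by rw [← hker, Subgroup.index_ker]
  have hpg : IsPGroup p g0.range :=
    hP.of_surjective g0.rangeRestrict g0.rangeRestrict_surjective
  obtain ⟨Q, hQ⟩ := hpg.exists_le_sylow
  have hQc := card_sylow_perm_sq p Q
  have hQeq : g0.range = (Q : Subgroup (Equiv.Perm (Fin (p ^ 2)))) := by
    apply Subgroup.eq_of_le_of_card_ge hQ
    rw [hrange]
    exact hQc.le.trans hKidx
  refine ⟨Q, g0.codRestrict (Q : Subgroup (Equiv.Perm (Fin (p ^ 2))))
    (fun a => hQ ⟨a, rfl⟩), ?_⟩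
  rintro ⟨q, hq⟩
  rw [← hQeq] at hq
  obtain ⟨a, rfl⟩ := hq
  exact ⟨a, rfl⟩

end Cfsg.Agent.Lib.Helper14
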